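import Cfsg.Agent.Lib.Part.Pgl
import Cfsg.Agent.Lib.SL2Card
import Cfsg.Agent.Lib.Blk.ZStar

/-! Groups with a partition and trivial Fitting subgroup (Suzuki): first part. -/

namespace CfsgLib.Part.Part

open Subgroup Cfsg CfsgLib.BSW

variable {G : Type*} [Group G] [Finite G] {π : Part G}

theorem eq_bot_of_isSolvable (hF : fittingSubgroup G = ⊥) {N : Subgroup G} [N.Normal]
    (hs : Group.IsSolvable N) : N = ⊥ := by
  by_contra h
  exact inf_fitting_ne_bot_of_isSolvable hs h (by rw [hF, inf_bot_eq])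

theorem exists_conj_comm (hF : fittingSubgroup G = ⊥) {t : G} (ht : orderOf t = 2) :
    ∃ g : G, g * t * g⁻¹ * t = t * (g * t * g⁻¹) ∧ g * t * g⁻¹ ≠ t := by
  by_contra h
  push Not at h
  have := Fact.mk Nat.prime_two
  have h1 := Blk.glauberman_zstar G t ht fun g hg => h g hg.symm.eq
  have h2 : pPrimeCore 2 G = ⊥ := eq_bot_of_isSolvable hF
    (FT.feit_thompson (Nat.coprime_two_right.mp (pPrimeCore_coprime 2)))
  refine (orderOf_eq_two_iff'.mp ht).2 (hF.le (center_le_fitting (mem_center_iff.mpr fun g => ?_)))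
  have := h1 g
  rwa [h2, mem_bot, mul_inv_eq_one, mul_inv_eq_iff_eq_mul] at this

theorem mem_of_sq_of_odd {C : Subgroup G} {h : G} {r : ℕ} (hr : Odd r) (h1 : h ^ 2 ∈ C)
    (h2 : h ^ r ∈ C) : h ∈ C := by
  obtain ⟨k, rfl⟩ := hr
  rw [pow_succ, pow_mul] at h2
  exact (mul_mem_cancel_left (pow_mem h1 k)).mp h2

theorem zAb_five (hF : fittingSubgroup G = ⊥) (h60 : Nat.card G = 60)
    (h4 : ∀ a : G, orderOf a = 2 → Nat.card (centralizer ({a} : Set G)) = 4) {t : G}
    (ht : orderOf t = 2) (h2 : ∀ x ∈ centralizer ({t} : Set G), x * x = 1) :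
    ∃ (P : Subgroup G) (w : G), ZAb P w ∧ Nat.card P = 5 ∧ Nat.card (twoPt P w) = 2 := by
  have : Fact (Nat.Prime 5) := ⟨by norm_num⟩
  have := Fact.mk Nat.prime_two
  obtain ⟨y, hy⟩ := exists_prime_orderOf_dvd_card' (G := G) 5 (by rw [h60]; norm_num)
  obtain ⟨P, hP⟩ := (isPGroup_zpowers_iff.mpr ⟨1, by rw [hy, pow_one]⟩).exists_le_sylow
  have hy1 : y ≠ 1 := fun e => by simp [e] at hy
  have hc : Nat.card (P : Subgroup G) = 5 := by
    obtain ⟨k, hk⟩ := P.isPGroup'.exists_card_eq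
    have h1 := card_subgroup_dvd_card (P : Subgroup G)
    have h2 := orderOf_dvd_natCard _ (hP (mem_zpowers y))
    rw [hk] at h1 h2 ⊢
    rw [h60] at h1
    rcases k with _ | _ | k
    · simp [hy] at h2
    · rfl
    · exact absurd ((pow_dvd_pow 5 (by omega : 2 ≤ k + 1 + 1)).trans h1) (by norm_num)
  have hgen : ∀ a ∈ (P : Subgroup G), a ≠ 1 → zpowers a = P := fun a ha ha1 => by
    have h1 : orderOf a ∣ 5 := hc ▸ orderOf_dvd_natCard _ ha
    have h2 := ((Nat.dvd_prime (by norm_num)).mp h1).resolve_left (mt orderOf_eq_one_iff.mp ha1)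
    exact eq_of_le_of_card_le (zpowers_le.mpr ha) (by rw [hc, Nat.card_zpowers, h2])
  have hcomm : ∀ a ∈ (P : Subgroup G), ∀ b ∈ (P : Subgroup G), a * b = b * a := fun a ha b hb => by
    rw [← hgen y (hP (mem_zpowers y)) hy1] at ha hb
    exact (commute_of_mem_zpowers ha hb).eq
  have hi : (normalizer ((P : Subgroup G) : Set G)).index = 6 := by
    have h1 := card_sylow_modEq_one 5 G
    have h2 := P.card_dvd_index
    have h3 := (P : Subgroup G).card_mul_index
    rw [hc, h60] at h3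
    rw [show (P : Subgroup G).index = 12 by omega] at h2
    rw [P.card_eq_index_normalizer] at h1 h2
    change (normalizer ((P : Subgroup G) : Set G)).index ≡ 1 [MOD 5] at h1
    change (normalizer ((P : Subgroup G) : Set G)).index ∣ 12 at h2
    have h5 : (normalizer ((P : Subgroup G) : Set G)).index ≠ 1 := fun e => by
      have := normalizer_eq_top_iff.mp (index_eq_one.mp e)
      have := eq_bot_of_isSolvable hF (isSolvable_of_isPGroup P.isPGroup')
      rw [this, card_bot] at hc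
      omega
    have h6 := Nat.le_of_dvd (by norm_num) h2
    unfold Nat.ModEq at h1
    generalize (normalizer ((P : Subgroup G) : Set G)).index = n at *
    interval_cases n <;> simp_all
  have hN : Nat.card (normalizer ((P : Subgroup G) : Set G)) = 10 := by
    have := (normalizer ((P : Subgroup G) : Set G)).card_mul_index
    rw [hi, h60] at this
    omega
  have hC : ∀ a ∈ (P : Subgroup G), a ≠ 1 → centralizer ({a} : Set G) = P := fun a ha ha1 => by
    have h1 : (P : Subgroup G) ≤ centralizer {a} := fun b hb => mem_cent.mpr (hcomm b hb a ha)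
    have h2 : centralizer {a} ≤ normalizer ((P : Subgroup G) : Set G) := by
      rw [← centralizer_zpowers', hgen a ha ha1]
      exact centralizer_le_normalizer _
    have h3 := card_dvd_of_le h1
    have h5 := card_dvd_of_le h2
    have h6 : ¬ 2 ∣ Nat.card (centralizer ({a} : Set G)) := fun e => by
      obtain ⟨⟨b, hb⟩, hb2⟩ := exists_prime_orderOf_dvd_card' 2 e
      rw [orderOf_mk] at hb2
      have h7 := orderOf_dvd_natCard _ (mem_cent_comm hb)
      have h8 := orderOf_dvd_natCard _ ha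
      rw [h4 b hb2] at h7
      rw [hc] at h8
      exact ha1 (orderOf_eq_one_iff.mp (Nat.eq_one_of_dvd_coprimes (by norm_num) h7 h8))
    refine (eq_of_le_of_card_le h1 ?_).symm
    rw [hc] at h3 ⊢
    rw [hN] at h5
    have h7 := Nat.le_of_dvd (by norm_num) h5
    omega
  have hyP := hP (mem_zpowers y)
  have hti : CentTI (P : Subgroup G) := hC y hyP hy1 ▸ centTI_of_cent_le (fun v hv hv1 => by
    rw [hC y hyP hy1] at hv ⊢
    exact (hC v hv hv1).le) hy1
  obtain ⟨w, hw, hwN⟩ := SetLike.not_le_iff_exists.mp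
    (show ¬ centralizer {t} ≤ normalizer ((P : Subgroup G) : Set G) from fun e => by
      have := card_dvd_of_le e
      rw [h4 t ht, hN] at this
      omega)
  have hi' : (normalizer ((P : Subgroup G) : Set G)).index = Nat.card (P : Subgroup G) + 1 := by
    rw [hi, hc]
  have hT : Nat.card (twoPt (P : Subgroup G) w) = 2 := by
    have := hti.card_twoPt hi' hwN
    rw [hN, hc] at this
    omega
  have hww := h2 w hw
  refine ⟨P, w, ⟨hti, hcomm, fun e => hy1 (e.le hyP), hi', hww, hwN, fun d hd => ?_⟩, hc, hT⟩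
  have h1 : w * d * w⁻¹ ∈ twoPt (P : Subgroup G) w := by
    refine mem_twoPt.mpr ⟨?_, by simpa [mul_assoc] using (mem_twoPt.mp hd).1⟩
    have := (mem_twoPt.mp hd).2
    rwa [inv_eq_of_mul_eq_one_right hww] at this ⊢
  by_cases hd1 : d = 1
  · simp [hd1]
  exact congrArg Subtype.val (((Nat.card_eq_two_iff' 1).mp hT).unique (y₁ := ⟨_, h1⟩)
    (y₂ := ⟨_, inv_mem hd⟩) (fun e => conj_ne_one hd1 (congrArg Subtype.val e))
    fun e => inv_ne_one.mpr hd1 (congrArg Subtype.val e))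

theorem le_cent (hN : ∀ x, x ≠ 1 → ¬ normalizer (π.c x : Set G) ≤ π.c x) {t : G}
    (ht : orderOf t = 2) (S : Sylow 2 G) (hS : (S : Subgroup G) ≤ centralizer {t}) :
    π.c t ≤ centralizer {t} := fun h hh => by
  have ht1 := (orderOf_eq_two_iff'.mp ht).2
  have hH := isNilpotent (hN t ht1)
  obtain ⟨u, hu, v, hv, rfl, -, hk, hc⟩ := exists_p_part Nat.prime_two h
  have hu' := zpowers_le.mpr hh hu
  refine mul_mem (hS ?_) (mem_cent.mpr
    (commute_of_coprime_of_mem_isNilpotent hH (zpowers_le.mpr hh hv) (π.mem t) (ht ▸ hc)).eq)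
  have h1 : (S : Subgroup G) ≤ normalizer (((pCore 2 (π.c t)).map (π.c t).subtype : Subgroup G) :
      Set G) := fun s hs => normalizer_le_normalizer_map_pCore 2 _
    (mem_norm_of_comm (π.mem t) ht1 (mem_cent.mp (hS hs)))
  have h2 := S.is_maximal' (S.isPGroup'.to_sup_of_normal_right' (map_pCore_isPGroup 2 _) h1)
    le_sup_left
  refine h2.le (mem_sup_right ⟨⟨u, hu'⟩, ?_, rfl⟩)
  exact le_pCore_of_isSubnormal (isSubnormal_of_isNilpotent _)
    (isPGroup_zpowers_iff.mpr (by rwa [orderOf_mk])) (mem_zpowers _)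

theorem centTI (hN : ∀ x, x ≠ 1 → ¬ normalizer (π.c x : Set G) ≤ π.c x)
    (hF : fittingSubgroup G = ⊥) {t : G} (ht : orderOf t = 2) (S : Sylow 2 G)
    (hS : (S : Subgroup G) ≤ centralizer {t}) (hSH : (S : Subgroup G) ≤ π.c t) :
    CentTI (π.c t) := by
  have := Fact.mk Nat.prime_two
  have ht1 := (orderOf_eq_two_iff'.mp ht).2
  have hH := isNilpotent (hN t ht1)
  have hHC := le_cent hN ht S hS
  have I1 : ∀ a b : G, orderOf a = 2 → orderOf b = 2 → b * a = a * b → b ∈ π.c a :=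
      fun a b ha hb h => by
    have h1 : IsPGroup 2 (zpowers b ⊔ zpowers a : Subgroup G) :=
      (isPGroup_zpowers_iff.mpr ⟨1, by rw [hb, pow_one]⟩).to_sup_of_normal_right'
        (isPGroup_zpowers_iff.mpr ⟨1, by rw [ha, pow_one]⟩) (zpowers_le.mpr
          (centralizer_le_normalizer _ (by rw [centralizer_zpowers']; exact mem_cent.mpr h)))
    obtain ⟨g, -, hg⟩ := (IsSylowIn.sylow_top S).exists_conj_le h1 le_top
    have h2 := hSH (hg ⟨a, mem_sup_right (mem_zpowers a), rfl⟩)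
    have h3 := hSH (hg ⟨b, mem_sup_left (mem_zpowers b), rfl⟩)
    change g * a * g⁻¹ ∈ _ at h2
    change g * b * g⁻¹ ∈ _ at h3
    rw [← π.eq (conj_ne_one (orderOf_eq_two_iff'.mp ha).2) h2] at h3
    simpa [mul_assoc] using π.conj g⁻¹ h3
  have I2 : ∀ a e : G, orderOf a = 2 → e * a = a * e → e ∈ π.c a := fun a e ha h => by
    by_contra he
    exact he (I1 a e ha ((order_of_comm (π.mem a) (orderOf_eq_two_iff'.mp ha).2 he h).2.trans ha) h)
  have h2H : 2 ∣ Nat.card (π.c t) := ht ▸ orderOf_dvd_natCard _ (π.mem t)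
  have I3 : ∀ v ∈ normalizer (π.c t : Set G), orderOf v = 2 → v ∈ π.c t := fun v hv hv2 => by
    obtain ⟨V, hVH, hV1, hVp, -, hVn⟩ := exists_central hH h2H
    obtain ⟨x, hx, hx1, h⟩ := exists_fixed hVp hV1 (hVn hv) ⟨1, by rw [hv2, pow_one]⟩
    exact mem_of_mem hx1 (hVH hx) (I2 v x hv2 h.symm)
  refine ⟨fun z hz hz1 u h => ?_, fun g hg x hx h => ?_⟩
  swap
  · by_contra hx1
    exact hg (mem_norm hx hx1 h)
  by_contra hu
  obtain ⟨hr, hur⟩ := order_of_comm hz hz1 hu h
  have huN := mem_norm_of_comm hz hz1 h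
  have hr2 : orderOf u ≠ 2 := fun e => hu (I3 u huN e)
  set M := normalizer (π.c t : Set G) with hM
  have key : ∀ g ∈ M, g ∉ π.c t → g ^ orderOf u = 1 := fun g hg hgH => by
    have hn : ((π.res M).c ⟨t, le_normalizer (π.mem t)⟩).Normal := normal_in_normalizer
    have := hughes (π := π.res M) (x := ⟨t, le_normalizer (π.mem t)⟩) (u := ⟨u, huN⟩)
      (z := ⟨z, le_normalizer hz⟩) (isNilpotent_subgroupOf hH M) hu hz
      (fun e => hz1 (congrArg Subtype.val e)) (Subtype.ext h) Nat.prime_two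
      (h2H.trans (Nat.card_congr (subgroupOfEquivOfLe le_normalizer).toEquiv).symm.dvd)
      (by rw [orderOf_mk]; exact hr2.symm) (g := ⟨g, hg⟩) hgH
    rw [orderOf_mk] at this
    exact congrArg Subtype.val this
  obtain ⟨g, hg, hgt⟩ := exists_conj_comm hF ht
  have ht2 : orderOf (g * t * g⁻¹) = 2 := by rw [Frob.orderOf_conj_eq, ht]
  have ht2H := I1 t _ ht ht2 hg
  generalize g * t * g⁻¹ = t₂ at hg hgt ht2 ht2H
  obtain ⟨v, hv2, hvH⟩ : ∃ v, orderOf v = 2 ∧ v ∉ π.c t := by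
    by_contra hc
    push Not at hc
    have : (π.c t).Normal := normalizer_eq_top_iff.mp (eq_top_iff.mpr fun k _ =>
      mem_norm (π.mem t) ht1 (hc _ (by rw [Frob.orderOf_conj_eq, ht])))
    exact ht1 (hF.le (le_fitting hH (π.mem t)))
  have hsq : ∀ a : G, orderOf a = 2 → a ^ 2 = 1 := fun a ha => ha ▸ pow_orderOf_eq_one a
  have swap : ∀ a ∈ π.c t, orderOf a = 2 → ∃ y, v * y * v⁻¹ = y⁻¹ ∧ y * a * y⁻¹ = v :=
      fun a ha ha2 => by
    obtain ⟨y, hy, e⟩ := H5.exists_conj_of_odd (hsq v hv2) (hsq a ha2) (by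
      rw [Nat.coprime_two_right, ← Nat.not_even_iff_odd, even_iff_two_dvd]
      intro e
      obtain ⟨b, -, hb, -, -, h1, h2⟩ := H5.exists_common_involution_of_even hv2 ha2 e
      have h3 := π.eq (orderOf_eq_two_iff'.mp ha2).2 ha ▸ I1 a b ha2 hb h2.symm.eq
      exact hvH (π.eq (orderOf_eq_two_iff'.mp hb).2 h3 ▸ I1 b v hb hv2 h1.eq))
    exact ⟨y, H5.inverts_of_mem_zpowers (H5.inverts_mul_left (hsq v hv2) (hsq a ha2)) hy, e⟩
  obtain ⟨y₁, h1, e1⟩ := swap t (π.mem t) ht
  obtain ⟨y₂, h2, e2⟩ := swap t₂ ht2H ht2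
  have hvv := (orderOf_eq_two_iff'.mp hv2).1
  have hvi := inv_eq_of_mul_eq_one_right hvv
  set w := v * y₁ with hw
  set k := y₂⁻¹ * y₁ with hk
  have hww : w * w = 1 := by
    calc w * w = (v * y₁ * v⁻¹) * y₁ := by rw [hw, hvi]; group
      _ = 1 := by rw [h1, inv_mul_cancel]
  have hwH : w ∉ π.c t := fun e => hvH (by
    have : v = w * t * w⁻¹ := by
      calc v = v * (y₁ * t * y₁⁻¹) * v⁻¹ := by rw [e1]; group
        _ = _ := by rw [hw]; group
    rw [this]
    exact mul_mem (mul_mem e (π.mem t)) (inv_mem e))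
  have hw2 : orderOf w = 2 := orderOf_eq_two_iff'.mpr ⟨hww, fun e => hwH (e ▸ one_mem _)⟩
  have hwk : w * k * w⁻¹ = k⁻¹ := by
    calc w * k * w⁻¹ = (v * y₁ * v⁻¹) * (v * y₂ * v⁻¹)⁻¹ := by rw [hw, hk]; group
      _ = _ := by rw [h1, h2, hk]; group
  have hkt : k * t * k⁻¹ = t₂ := by
    calc k * t * k⁻¹ = y₂⁻¹ * (y₁ * t * y₁⁻¹) * y₂ := by rw [hk]; group
      _ = _ := by rw [e1, ← e2]; group
  clear_value w k
  have hkM : k ∈ M := mem_norm (π.mem t) ht1 (hkt ▸ ht2H)
  have hkH : k ∉ π.c t := fun e => hgt (by rw [← hkt, mem_cent.mp (hHC e), mul_inv_cancel_right])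
  rw [← hur] at hr
  have := Fact.mk hr
  have hko := orderOf_eq_prime (key k hkM hkH) fun e => hkH (e ▸ one_mem _)
  have hkk : k ^ 2 ≠ 1 := fun e => hr2
    ((Nat.prime_dvd_prime_iff_eq hr Nat.prime_two).mp (hko ▸ orderOf_dvd_of_pow_eq_one e))
  obtain ⟨V, hVH, hV1, hVp, -, hVn⟩ := exists_central hH (p := orderOf u)
    (hur ▸ orderOf_dvd_natCard _ hz)
  obtain ⟨x, hx, hx1, hkx⟩ := exists_fixed hVp hV1 (hVn hkM) ⟨1, by rw [hko, pow_one]⟩
  have h3 := inverts_of_fpf (K := centralizer {k}) hww (fun e he => mem_cent.mpr (by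
      have h4 := mem_cent.mp he
      calc w * e * w⁻¹ * k = w * (e * k⁻¹) * w⁻¹ := by
            nth_rewrite 1 [← inv_inv k, ← hwk]; group
        _ = (w * k * w⁻¹)⁻¹ * (w * e * w⁻¹) := by rw [(Commute.inv_right h4).eq]; group
        _ = _ := by rw [hwk, inv_inv])) (fun e he hc => by
      by_contra he1
      have h4 := I2 w e hw2 hc.symm
      have h5 := mem_norm_of_comm h4 he1 (mem_cent.mp he).symm
      have h6 : k ^ 2 ∈ π.c w := by
        have := mul_mem (conj_mem_of_mem_normalizer h5 (π.mem w)) (inv_mem (π.mem w))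
        rwa [show k * w * k⁻¹ * w⁻¹ = k * (w * k * w⁻¹)⁻¹ by group, hwk, inv_inv, ← pow_two] at this
      have h7 : k ∈ π.c w := by
        by_contra h7
        exact hkk (pow_eq_one h7 h6)
      have h8 := commute_of_coprime_of_mem_isNilpotent
        (isNilpotent (hN w (orderOf_eq_two_iff'.mp hw2).2)) (π.mem w) h7
        (by rw [hw2, hko]; exact (Nat.coprime_primes Nat.prime_two hr).mpr hr2.symm)
      rw [h8.eq, mul_inv_cancel_right] at hwk
      exact hkk (by rw [pow_two]; nth_rewrite 1 [hwk]; simp)) (mem_cent.mpr hkx.symm)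
  exact hwH (I3 w (mem_norm (hVH hx) hx1 (h3 ▸ inv_mem (hVH hx))) hw2)

end CfsgLib.Part.Part
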