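import Cfsg.Agent.Lib.Part.Basic
import Cfsg.Agent.Lib.BSW.OddA
import Cfsg.Agent.Lib.H1S4
import Cfsg.Agent.Lib.BurnsideBasis

/-! Groups with a partition and a nontrivial abelian normal subgroup (Baer, Kegel). -/

namespace CfsgLib.Part.Part

open Subgroup Cfsg CfsgLib.BSW

variable {G : Type*} [Group G] [Finite G] {π : Part G}

theorem frob_or_hughes {x : G} [hn : (π.c x).Normal] (hx : x ≠ 1) (ht : π.c x ≠ ⊤)
    (hX : Group.IsNilpotent (π.c x)) {p r : ℕ} (hp : p.Prime) (hr : r.Prime) (hne : p ≠ r)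
    (hpd : p ∣ Nat.card (π.c x)) (hrd : r ∣ Nat.card (π.c x)) :
    (∃ p : ℕ, p.Prime ∧ closure {g : G | g ^ p ≠ 1} ≠ ⊤) ∨
      ∃ H : Subgroup G, IsFrobeniusComplement H := by
  by_cases h : ∀ z ∈ π.c x, z ≠ 1 → ∀ u, u * z = z * u → u ∈ π.c x
  · obtain ⟨H, hH⟩ := Frob.IsFrobeniusKernel.exists_isFrobeniusPair
      ⟨hn, fun e => hx (e.le (π.mem x)), ht, h⟩
    exact Or.inr ⟨H, hH.isFrobeniusComplement⟩
  push Not at h
  obtain ⟨z, hz, hz1, u, hc, hu⟩ := h
  obtain ⟨h1, h2⟩ := order_of_comm hz hz1 hu hc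
  refine Or.inl ⟨orderOf u, h2 ▸ h1, fun e => ht (eq_top_iff.mpr (e.ge.trans ?_))⟩
  refine (closure_le _).mpr fun g hg => ?_
  by_contra hgX
  by_cases hpu : p = orderOf u
  · exact hg (hughes hX hu hz hz1 hc hr hrd (hpu ▸ hne.symm) hgX)
  · exact hg (hughes hX hu hz hz1 hc hp hpd hpu hgX)

theorem hughes_of_center (ht : ∀ x, π.c x ≠ ⊤) (hZ : center G ≠ ⊥) :
    ∃ p : ℕ, p.Prime ∧ closure {g : G | g ^ p ≠ 1} ≠ ⊤ := by
  obtain ⟨⟨z, hz⟩, hz1⟩ := ne_bot_iff_exists_ne_one.mp hZ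
  have hz1' : z ≠ 1 := fun e => hz1 (Subtype.ext e)
  obtain ⟨u, -, hu⟩ := SetLike.not_le_iff_exists.mp fun e => ht z (top_le_iff.mp e)
  refine ⟨orderOf z, (order_of_comm (π.mem z) hz1' hu (mem_center_iff.mp hz u)).1,
    fun e => ht z (eq_top_iff.mpr (e.ge.trans ((closure_le _).mpr fun g hg => ?_)))⟩
  by_contra hgX
  exact hg (pow_orderOf_of_comm (π.mem z) hz1' hgX (mem_center_iff.mp hz g))

section

variable (hN : ∀ x, x ≠ 1 → ¬ normalizer (π.c x : Set G) ≤ π.c x)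
  (hP : ∀ x, (π.c x).Normal → ∀ p r : ℕ, p.Prime → r.Prime → p ∣ Nat.card (π.c x) →
    r ∣ Nat.card (π.c x) → p = r)
  {p : ℕ} [hp : Fact p.Prime] {V : Subgroup G} [hV : V.Normal] (hV1 : V ≠ ⊥) (hVp : IsPGroup p V)
  (hVc : ∀ a ∈ V, ∀ b ∈ V, a * b = b * a)

omit hV in
include hVp in
theorem dvd_orderOf {v : G} (hv : v ∈ V) (h1 : v ≠ 1) : p ∣ orderOf v := by
  obtain ⟨k, hk⟩ := IsPGroup.iff_orderOf.mp hVp ⟨v, hv⟩
  rw [orderOf_mk] at hk
  rcases k with _ | k
  · exact absurd (orderOf_eq_one_iff.mp hk) h1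
  · exact hk ▸ dvd_pow_self p k.succ_ne_zero

include hN hP hVp hVc in
theorem fpf {w : G} (hw : w ≠ 1) (hc : (orderOf w).Coprime p) :
    ∀ v ∈ V, w * v = v * w → v = 1 := by
  intro v hv h
  by_contra hv1
  have hnd : ¬ p ∣ orderOf w := hp.out.coprime_iff_not_dvd.mp hc.symm
  have key : ∀ a ∈ V, w * a = a * w → a ∈ π.c w := fun a ha h => by
    by_cases ha1 : a = 1
    · exact ha1 ▸ one_mem _
    exact mem_of_comm (π.mem w) hw h.symm fun e => hnd (e ▸ dvd_orderOf hVp ha ha1)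
  have h1 := key v hv h
  have hY := isNilpotent (hN w hw)
  have hle : V ≤ π.c w := fun a ha => by
    have h2 := mem_norm_of_comm h1 hv1 (hVc a ha v hv)
    have h3 : a * w * a⁻¹ * w⁻¹ ∈ π.c w :=
      mul_mem (conj_mem_of_mem_normalizer h2 (π.mem w)) (inv_mem (π.mem w))
    have h4 : a * w * a⁻¹ * w⁻¹ ∈ V := by
      rw [mul_assoc, mul_assoc, ← mul_assoc w]
      exact mul_mem ha (hV.conj_mem _ (inv_mem ha) w)
    obtain ⟨k, hk⟩ := IsPGroup.iff_orderOf.mp hVp ⟨_, h4⟩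
    rw [orderOf_mk] at hk
    have h5 : (orderOf (a * w * a⁻¹ * w⁻¹)).Coprime (orderOf w) := hk ▸ hc.symm.pow_left k
    have h6 := commute_of_coprime_of_mem_isNilpotent hY h3 (π.mem w) h5
    have h7 := h6.mul_pow (orderOf w)
    rw [inv_mul_cancel_right, conj_pow, pow_orderOf_eq_one, mul_one, mul_one, mul_inv_cancel] at h7
    have h8 := orderOf_eq_one_iff.mp (Nat.eq_one_of_dvd_coprimes h5 dvd_rfl
      (orderOf_dvd_of_pow_eq_one h7.symm))
    rw [mul_inv_eq_one, mul_inv_eq_iff_eq_mul] at h8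
    exact key a ha h8.symm
  obtain ⟨q, hq, hd⟩ := Nat.exists_prime_and_dvd (mt orderOf_eq_one_iff.mp hw)
  have := hP w (normal_of_le (fun e => hv1 (e.le hv)) hle) p q hp.out hq
    ((dvd_orderOf hVp hv hv1).trans (orderOf_dvd_natCard _ h1))
    (hd.trans (orderOf_dvd_natCard _ (π.mem w)))
  exact hnd (this ▸ hd)

include hN hP hV1 hVp hVc in
theorem exists_pow_ne {w u : G} {q s : ℕ} (hq : q.Prime) (hqp : q ≠ p) (hw : orderOf w = q)
    (hu : u ∈ normalizer ((zpowers w : Subgroup G) : Set G)) (hs : s.Prime) :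
    ∃ v ∈ V, ∃ x ∈ zpowers w, (v * (x * u)) ^ s ≠ 1 := by
  by_contra h
  push Not at h
  have hc := (Nat.coprime_primes hq hp.out).mpr hqp
  have h1 := H5.le_centralizer_of_coset_pow hs (BSW.isMulCommutative_iff'.mpr hVc) hu h (by
    obtain ⟨k, hk⟩ := hVp.exists_card_eq
    rw [hk, Nat.card_zpowers, hw]
    exact hc.pow_right k)
  refine hV1 (eq_bot_iff.mpr fun v hv => fpf hN hP hVp hVc (w := w) (fun e => ?_) (hw ▸ hc) v hv
    (mem_centralizer_iff.mp (h1 (mem_zpowers w)) v hv).symm)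
  rw [e, orderOf_one] at hw
  exact hq.one_lt.ne hw

include hN hP hV1 hVp hVc in
theorem eq_of_coset {w u : G} {q s : ℕ} (hq : q.Prime) (hqp : q ≠ p) (hw : orderOf w = q)
    (hu : u ∈ normalizer ((zpowers w : Subgroup G) : Set G)) (hs : s.Prime)
    (huw : u ∉ zpowers w) (h : ∀ x ∈ zpowers w, (x * u) ^ s = 1) : s = p := by
  by_contra hsp
  have := Fact.mk hs
  obtain ⟨v, hv, x, hx, h1⟩ := exists_pow_ne hN hP hV1 hVp hVc hq hqp hw hu hs
  have h2 : x * u ≠ 1 := fun e => huw ((mul_mem_cancel_left hx).mp (e ▸ one_mem _))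
  obtain ⟨a, -, e⟩ := Frob.exists_conj_eq_mul_of_fpf (fun k hk => hV.conj_mem k hk (x * u))
    (fpf hN hP hVp hVc h2 (by
      rw [orderOf_eq_prime (h x hx) h2]
      exact (Nat.coprime_primes hs hp.out).mpr hsp)) hv
  exact h1 (by rw [← e, conj_pow, h x hx]; simp)

include hN hP hV1 hVp hVc in
theorem mem_zpowers_of_comm {w u : G} {q : ℕ} (hq : q.Prime) (hqp : q ≠ p) (hw : orderOf w = q)
    (hu : u ^ q = 1) (h : u * w = w * u) : u ∈ zpowers w := by
  by_contra huw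
  refine hqp (eq_of_coset hN hP hV1 hVp hVc hq hqp hw ?_ hq huw fun x hx => ?_)
  · refine centralizer_le_normalizer _ ?_
    rw [centralizer_zpowers']
    exact mem_cent.mpr h
  · obtain ⟨m, rfl⟩ := hx
    rw [((Commute.zpow_right h m).symm).mul_pow, hu, mul_one, ← zpow_natCast, ← zpow_mul, mul_comm,
      zpow_mul, zpow_natCast, ← hw, pow_orderOf_eq_one, one_zpow]

open scoped IsMulCommutative in
include hN hP hV1 hVp hVc in
theorem four {w : G} {q : ℕ} (hq : q.Prime) (hqp : q ≠ p) (hw : orderOf w = q) :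
    p = 2 ∧ Nat.card V = 4 ∧ (∀ g ∈ centralizer (V : Set G), g * g = 1) ∧
      ∃ u, u * w * u⁻¹ = w⁻¹ := by
  have := Fact.mk hq
  have hw1 : w ≠ 1 := fun e => by
    rw [e, orderOf_one] at hw
    exact hq.one_lt.ne hw
  have hfw := fpf hN hP hVp hVc hw1 (hw ▸ (Nat.coprime_primes hq hp.out).mpr hqp)
  obtain ⟨u, hu, huY, s, hs, hus⟩ := exists_norm (hN w hw1)
  have hwY : zpowers w ≤ π.c w := zpowers_le.mpr (π.mem w)
  have hun : u ∈ normalizer ((zpowers w : Subgroup G) : Set G) := by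
    obtain ⟨Z, hZY, hZ1, hZq, hZc, -⟩ := exists_central (isNilpotent (hN w hw1))
      (p := q) (hw ▸ orderOf_dvd_natCard _ (π.mem w))
    obtain ⟨⟨z, hz⟩, hzq⟩ := exists_prime_orderOf_dvd_card' (G := Z) q (by
      obtain ⟨k, hk⟩ := hZq.exists_card_eq
      rcases k with _ | k
      · exact absurd (card_eq_one.mp hk) hZ1
      · exact hk ▸ dvd_pow_self q k.succ_ne_zero)
    rw [orderOf_mk] at hzq
    have hwq : w ^ q = 1 := hw ▸ pow_orderOf_eq_one w
    have hwq' : (u * w * u⁻¹) ^ q = 1 := by rw [conj_pow, hwq]; simp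
    have h1 := mem_zpowers_of_comm hN hP hV1 hVp hVc hq hqp hzq hwq (hZc z hz w (π.mem w))
    have h2 := mem_zpowers_of_comm hN hP hV1 hVp hVc hq hqp hzq hwq'
      (hZc z hz _ (conj_mem_of_mem_normalizer hu (π.mem w)))
    have h3 := mem_zpowers_of_comm hN hP hV1 hVp hVc hq hqp hw hwq'
      (commute_of_mem_zpowers h2 h1).eq
    refine mem_normalizer_of_conj_mem ?_
    rintro _ ⟨m, rfl⟩
    simp only
    rw [← conj_zpow]
    exact zpow_mem h3 m
  have hsp := eq_of_coset hN hP hV1 hVp hVc hq hqp hw hun hs (fun e => huY (hwY e))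
    fun x hx => coset_pow hu huY (hus ▸ one_mem _) (hwY hx)
  subst hsp
  obtain ⟨v0, hv0, x0, hx0, hn0⟩ := exists_pow_ne hN hP hV1 hVp hVc hq hqp hw hun hs
  have hu' := mul_mem (le_normalizer (hwY hx0)) hu
  have huY' : x0 * u ∉ π.c w := fun e => huY ((mul_mem_cancel_left (hwY hx0)).mp e)
  have hus' := coset_pow hu huY (hus ▸ one_mem _) (hwY hx0)
  have hun' := mul_mem (le_normalizer hx0) hun
  clear huY hus hu hun
  generalize x0 * u = u at hn0 hu' huY' hus' hun'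
  have : IsMulCommutative V := BSW.isMulCommutative_iff'.mpr hVc
  let N : V →* V :=
    { toFun := fun v => ((List.range s).map fun j => MulAut.conjNormal (u ^ j) v).prod
      map_one' := by simp
      map_mul' := fun a b => by simp only [map_mul, List.prod_map_mul] }
  have hNv : ∀ v : V, (N v : G) = (v * u) ^ s := fun v => by
    rw [H5.mul_pow_eq_prod_conj, hus', mul_one]; rfl
  set Z := π.c (v0 * u) with hZ
  have hvu1 : v0 * u ≠ 1 := fun e => hn0 (by rw [e, one_pow])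
  have hCZ : ∀ a ∈ V, u * a = a * u → a ∈ Z := fun a ha h => by
    by_contra haZ
    obtain ⟨h1, h2⟩ := order_of_comm (π.mem (v0 * u)) hvu1 haZ (by
      rw [mul_assoc, h, ← mul_assoc, ← mul_assoc, hVc a ha v0 hv0])
    have h3 := dvd_orderOf hVp ha fun e => haZ (e ▸ one_mem _)
    rw [h2, Nat.prime_dvd_prime_iff_eq hs h1] at h3
    exact hn0 (h3 ▸ pow_orderOf_eq_one _)
  have hNZ : ∀ v : V, (N v : G) ∈ Z := fun v => hCZ _ (N v).2 (by
    have h1 : v * u * N v = N v * (v * u) := by rw [hNv]; exact (Commute.self_pow _ _).eq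
    rw [mul_assoc, ← mul_assoc (N v : G), hVc _ (N v).2 _ v.2, mul_assoc] at h1
    exact mul_left_cancel h1)
  have hNm : ∀ v : V, (v : G) * u ∉ Z → N v = 1 := fun v h =>
    Subtype.ext ((hNv v).trans (pow_eq_one h (hNv v ▸ hNZ v)))
  have hVZ : ¬ V ≤ Z := fun hle => by
    have hn := normal_of_le hV1 hle
    have huZ : u ∈ Z := (mul_mem_cancel_left (hle hv0)).mp (π.mem _)
    have h1 : w * u * w⁻¹ * u⁻¹ ∈ Z := mul_mem (hn.conj_mem u huZ w) (inv_mem huZ)
    have h2 : w * u * w⁻¹ * u⁻¹ ∈ zpowers w := by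
      rw [mul_assoc, mul_assoc, ← mul_assoc u]
      exact mul_mem (mem_zpowers w) (conj_mem_of_mem_normalizer hun' (inv_mem (mem_zpowers w)))
    have hu1 : u ≠ 1 := fun e => huY' (e ▸ one_mem _)
    have hus := orderOf_eq_prime hus' hu1
    by_cases h3 : w * u * w⁻¹ * u⁻¹ = 1
    · rw [mul_inv_eq_one, mul_inv_eq_iff_eq_mul] at h3
      exact huY' (mem_of_comm (π.mem w) hw1 h3.symm (by rw [hus, hw]; exact hqp.symm))
    · have h4 := orderOf_dvd_natCard _ h2
      rw [Nat.card_zpowers, hw] at h4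
      have h5 := ((Nat.dvd_prime hq).mp h4).resolve_left (mt orderOf_eq_one_iff.mp h3)
      exact hqp (hP _ hn q s hq hs (h5 ▸ orderOf_dvd_natCard _ h1) (hus ▸ orderOf_dvd_natCard _ huZ))
  set n0 := N ⟨v0, hv0⟩ with hn0def
  have hn1 : n0 ≠ 1 := fun e => hn0 (by rw [← hNv ⟨v0, hv0⟩, ← hn0def, e]; rfl)
  have hout : ∀ a : V, (a : G) ∉ Z → N a = n0⁻¹ := fun a ha => by
    rw [eq_inv_iff_mul_eq_one, hn0def, ← map_mul]
    refine hNm _ fun e => ha ?_
    rw [coe_mul, mul_assoc] at e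
    exact (mul_mem_cancel_right (π.mem _)).mp e
  obtain ⟨a0, ha0, ha0Z⟩ := SetLike.not_le_iff_exists.mp hVZ
  have hnn : n0 * n0 = 1 := by
    have h1 := hout ⟨a0, ha0⟩ ha0Z
    have h2 := hout ⟨a0, ha0⟩⁻¹ fun e => ha0Z (inv_mem_iff.mp e)
    rw [map_inv, h1, inv_inv] at h2
    exact mul_eq_one_iff_eq_inv.mpr h2
  have hn1' : (n0 : G) ≠ 1 := fun e => hn1 (Subtype.ext e)
  have hn2 : orderOf (n0 : G) = 2 := orderOf_eq_two_iff'.mpr ⟨congrArg Subtype.val hnn, hn1'⟩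
  have hs2 : s = 2 := by
    have := dvd_orderOf hVp n0.2 hn1'
    rwa [hn2, Nat.prime_dvd_prime_iff_eq hs Nat.prime_two] at this
  subst hs2
  have huw : u * w * u⁻¹ = w⁻¹ := by
    have h1 := coset_pow hu' huY' (hus' ▸ one_mem _) (π.mem w)
    rw [pow_two] at h1 hus'
    rw [inv_eq_of_mul_eq_one_right hus']
    exact eq_inv_of_mul_eq_one_right (by rw [← h1]; group)
  have hin : ∀ a ∈ V, a ∈ Z → u * a * u⁻¹ = a⁻¹ := fun a ha haZ => by
    have h1 := hout (⟨a, ha⟩ * ⟨a0, ha0⟩) fun e => ha0Z ((mul_mem_cancel_left haZ).mp e)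
    rw [map_mul, hout ⟨a0, ha0⟩ ha0Z, mul_eq_right] at h1
    have h2 := hNv ⟨a, ha⟩
    rw [h1, pow_two] at h2
    rw [pow_two] at hus'
    rw [inv_eq_of_mul_eq_one_right hus']
    exact eq_inv_of_mul_eq_one_right (by rw [show (1 : G) = _ from h2]; group)
  have htwo : ∀ a ∈ V, ∀ b ∈ V, (a ∈ Z ↔ b ∈ Z) → a * b⁻¹ ∈ Z := fun a ha b hb h => by
    by_cases haZ : a ∈ Z
    · exact mul_mem haZ (inv_mem (h.mp haZ))
    by_contra h1
    have h2 := hout (⟨a, ha⟩ * ⟨b, hb⟩⁻¹) h1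
    rw [map_mul, map_inv, hout _ haZ, hout _ fun e => haZ (h.mpr e), mul_inv_cancel, eq_comm,
      inv_eq_one] at h2
    exact hn1 h2
  have hle : Nat.card V ≤ 4 := by
    have h1 := Nat.card_le_card_of_injective
      (fun a : V => ((a : G) ∈ Z, w⁻¹ * a * w ∈ Z)) fun a b h => by
        simp only [Prod.mk.injEq, eq_iff_iff] at h
        have hd : (a : G) * (b : G)⁻¹ ∈ V := mul_mem a.2 (inv_mem b.2)
        have h2 := hin _ hd (htwo a a.2 b b.2 h.1)
        have h3 := htwo _ (hV.conj_mem' _ a.2 w) _ (hV.conj_mem' _ b.2 w) h.2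
        have h4 := hin _ (mul_mem (hV.conj_mem' _ a.2 w) (inv_mem (hV.conj_mem' _ b.2 w))) h3
        refine Subtype.ext (mul_inv_eq_one.mp ?_)
        rw [show w⁻¹ * a * w * (w⁻¹ * b * w)⁻¹ = w⁻¹ * (a * (b : G)⁻¹) * w by group] at h4
        generalize (a : G) * (b : G)⁻¹ = d at hd h2 h4
        have h5 : orderOf (w ^ 2) = q := by
          rw [← hw]
          exact Nat.Coprime.orderOf_pow (hw ▸ (Nat.coprime_primes hq hs).mpr hqp)
        refine fpf hN hP hVp hVc (w := w ^ 2) (fun e => ?_)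
          (h5 ▸ (Nat.coprime_primes hq hs).mpr hqp) d hd ?_
        · rw [e, orderOf_one] at h5
          exact hq.one_lt.ne h5
        have h6 : w * d⁻¹ * w⁻¹ = (w⁻¹ * d * w)⁻¹ := by
          calc w * d⁻¹ * w⁻¹ = (u * w * u⁻¹)⁻¹ * (u * d * u⁻¹) * (u * w * u⁻¹) := by
                rw [huw, h2, inv_inv]
            _ = _ := by rw [← h4]; group
        calc w ^ 2 * d = w * (w * d⁻¹ * w⁻¹)⁻¹ * w := by rw [pow_two]; group
          _ = _ := by rw [h6, pow_two]; group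
    simpa using h1
  have hge : 2 < Nat.card V := by
    have := Fintype.ofFinite V
    rw [Nat.card_eq_fintype_card]
    refine Fintype.two_lt_card_iff.mpr ⟨1, n0, ⟨a0, ha0⟩, hn1.symm, fun e => ha0Z ?_, fun e => ha0Z ?_⟩
    · exact (show (1 : G) = a0 from congrArg Subtype.val e) ▸ one_mem _
    · exact (show (n0 : G) = a0 from congrArg Subtype.val e) ▸ hNZ _
  refine ⟨rfl, ?_, fun g hg => ?_, u, huw⟩
  · obtain ⟨k, hk⟩ := hVp.exists_card_eq
    have : 2 ∣ Nat.card V := hn2 ▸ orderOf_dvd_natCard _ n0.2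
    omega
  · by_contra h
    have h1 : orderOf g ≠ 2 := fun e => h (orderOf_eq_two_iff'.mp e).1
    have h2 := mem_of_comm (hNZ _) hn1' (mem_centralizer_iff.mp hg _ n0.2).symm (hn2 ▸ h1)
    have h3 := (order_of_comm (hNZ _) hn1' ha0Z (hVc _ ha0 _ n0.2)).2
    have h4 := mem_of_comm (π.mem a0) (fun e => ha0Z (e ▸ one_mem _))
      (mem_centralizer_iff.mp hg _ ha0).symm (by rw [h3, hn2]; exact h1)
    exact ha0Z (mem_of_mem (fun e => h (by rw [e, one_mul])) h2 h4)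

open scoped IsMulCommutative in
include hN hP hV1 hVp hVc in
theorem sym_four {w : G} {q : ℕ} (hq : q.Prime) (hqp : q ≠ p) (hw : orderOf w = q) :
    Nonempty (G ≃* Equiv.Perm (Fin 4)) := by
  obtain ⟨rfl, h4, hC, u, hu⟩ := four hN hP hV1 hVp hVc hq hqp hw
  have := Fact.mk hq
  set C := centralizer (V : Set G) with hCdef
  have hVC : V ≤ C := fun a ha => mem_centralizer_iff.mpr fun b hb => hVc b hb a ha
  have hC4 := (four hN hP (V := C) (fun e => hV1 (eq_bot_iff.mpr (e ▸ hVC)))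
    (fun g => ⟨1, Subtype.ext (by simpa [pow_two] using hC g g.2)⟩) (fun a ha b hb => by
      have h1 := hC _ (mul_mem ha hb)
      rw [← inv_eq_of_mul_eq_one_right h1, mul_inv_rev, inv_eq_of_mul_eq_one_right (hC a ha),
        inv_eq_of_mul_eq_one_right (hC b hb)]) hq hqp hw).2.1
  have hcm : IsMulCommutative V := BSW.isMulCommutative_iff'.mpr hVc
  have hV2 : ∀ a ∈ V, a ^ 2 = 1 := fun a ha => by rw [pow_two]; exact hC a (hVC ha)
  have h6 : C.index ∣ 6 := by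
    have h1 : (MulAut.conjNormal : G →* MulAut V).ker = C := by
      ext g
      simp only [MonoidHom.mem_ker, MulEquiv.ext_iff, Subtype.ext_iff, MulAut.conjNormal_apply,
        MulAut.one_apply, hCdef, mem_centralizer_iff, Subtype.forall, mul_inv_eq_iff_eq_mul,
        SetLike.mem_coe]
      exact forall₂_congr fun _ _ => eq_comm
    have h2 := BurnsideBasis.elemAb_card_mulAut (Q := V) (p := 2)
      (fun x => Subtype.ext (hV2 x x.2)) (r := 2) h4
    rw [← h1, index_ker]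
    exact (card_subgroup_dvd_card _).trans (by rw [h2]; decide)
  have hw1 : w ≠ 1 := fun e => by
    rw [e, orderOf_one] at hw
    exact hq.one_lt.ne hw
  have hwC : w ∉ C := fun e => hV1 (eq_bot_iff.mpr fun v hv =>
    fpf hN hP hVp hVc hw1 (hw ▸ (Nat.coprime_primes hq hp.out).mpr hqp) v hv
      (mem_centralizer_iff.mp e v hv).symm)
  have hwq : w ^ q ^ 1 = 1 := by rw [pow_one, ← hw, pow_orderOf_eq_one]
  have hq3 : q = 3 := by
    have h1 := (H1.dvd_index_of_not_mem hwq hwC).trans h6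
    rcases (Nat.Prime.dvd_mul hq (m := 2) (n := 3)).mp h1 with h | h
    · exact absurd ((Nat.prime_dvd_prime_iff_eq hq Nat.prime_two).mp h) hqp
    · exact (Nat.prime_dvd_prime_iff_eq hq Nat.prime_three).mp h
  subst hq3
  obtain ⟨K, f, hf⟩ := H1.involves_iff.mp (H1.Involves.of_subgroup (H1.involves_S4 (M := ⊤)
    ⟨hcm, hV2⟩ le_top (mem_top w) (mem_top u) (by rw [normalizer_eq_top]; trivial)
    (by rw [normalizer_eq_top]; trivial) hwq hwC hu))
  have h24 : Nat.card (Equiv.Perm (Fin 4)) = 24 := by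
    rw [Nat.card_perm, Nat.card_eq_fintype_card, Fintype.card_fin]; rfl
  have h1 := Nat.card_le_card_of_surjective f hf
  have h2 := C.card_mul_index
  have h3 := Nat.le_of_dvd (by norm_num) h6
  have h5 : K = ⊤ := eq_top_of_le_card K (by rw [← h2, hC4]; omega)
  subst h5
  refine ⟨topEquiv.symm.trans (MulEquiv.ofBijective f (hf.bijective_of_nat_card_le ?_))⟩
  rw [card_top, ← h2, hC4]
  omega

end

/-- Baer–Kegel: groups with a partition and nontrivial Fitting subgroup. -/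
theorem of_fitting_ne_bot (ht : ∀ x, π.c x ≠ ⊤)
    (hN : ∀ x, x ≠ 1 → ¬ normalizer (π.c x : Set G) ≤ π.c x) (hF : fittingSubgroup G ≠ ⊥) :
    Nonempty (G ≃* Equiv.Perm (Fin 4)) ∨
      (∃ p : ℕ, p.Prime ∧ closure {g : G | g ^ p ≠ 1} ≠ ⊤) ∨
      ∃ H : Subgroup G, IsFrobeniusComplement H := by
  by_cases hP : ∀ x, (π.c x).Normal → ∀ p r : ℕ, p.Prime → r.Prime → p ∣ Nat.card (π.c x) →
    r ∣ Nat.card (π.c x) → p = r
  swap
  · push Not at hP
    obtain ⟨x, hn, p, r, hp, hr, h1, h2, hne⟩ := hP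
    have hx : π.c x ≠ ⊥ := fun e => by
      rw [e, card_bot, Nat.dvd_one] at h1
      exact hp.one_lt.ne' h1
    obtain ⟨⟨y, hy⟩, hy1⟩ := ne_bot_iff_exists_ne_one.mp hx
    have hy1' : y ≠ 1 := fun e => hy1 (Subtype.ext e)
    rw [← π.eq hy1' hy] at hn h1 h2
    exact Or.inr (frob_or_hughes hy1' (ht y) (isNilpotent (hN y hy1')) hp hr hne h1 h2)
  by_cases hZ : center G = ⊥
  swap
  · exact Or.inr (Or.inl (hughes_of_center ht hZ))
  obtain ⟨p, hp, hd⟩ := Nat.exists_prime_and_dvd (mt card_eq_one.mp hF)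
  have := Fact.mk hp
  obtain ⟨V, hVF, hV1, hVp, hVc, hVn⟩ := exists_central fitting_isNilpotent hd
  rw [normalizer_eq_top, top_le_iff, normalizer_eq_top_iff] at hVn
  have hG : ¬ IsPGroup p G := fun e => by
    have := e.isNilpotent
    exact inf_center_ne_bot_of_isNilpotent hF (by rw [hZ, inf_bot_eq])
  obtain ⟨q, hq, hqd, hqp⟩ : ∃ q : ℕ, q.Prime ∧ q ∣ Nat.card G ∧ q ≠ p := by
    by_contra h
    push Not at h
    obtain ⟨k, hk⟩ := exists_pow_of_forall_prime_eq hp Nat.card_pos.ne' h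
    exact hG (IsPGroup.of_card hk)
  have := Fact.mk hq
  obtain ⟨w, hw⟩ := exists_prime_orderOf_dvd_card' q hqd
  exact Or.inl (sym_four hN hP hV1 hVp (fun a ha b hb => hVc b hb a (hVF ha)) hq hqp hw)

end CfsgLib.Part.Part
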