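import Cfsg.Agent.Lib.Part.Even
import Cfsg.Agent.Lib.Part.Solv

/-! The classification of finite groups with a nontrivial partition (Baer, Kegel, Suzuki). -/

namespace CfsgLib.Part.Part

open Subgroup Cfsg CfsgLib.BSW

variable {G : Type*} [Group G] [Finite G] {π : Part G}

structure Dih (π : Part G) (t x : G) (S : Sylow 2 G) : Prop where
  fit : fittingSubgroup G = ⊥
  ord : orderOf t = 2
  syl : (S : Subgroup G) ≤ centralizer {t}
  le : π.c t ≤ centralizer {t}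
  notLe : ¬ (S : Subgroup G) ≤ π.c t
  comm : x * t = t * x
  xx : x * x ≠ 1

namespace Dih

variable {t x : G} {S : Sylow 2 G} (h : Dih π t x S)
include h

omit [Finite G] in
theorem tt : t * t = 1 := (orderOf_eq_two_iff'.mp h.ord).1

omit [Finite G] in
theorem t_ne : t ≠ 1 := (orderOf_eq_two_iff'.mp h.ord).2

theorem sq {u : G} (hu : u * t = t * u) (huH : u ∉ π.c t) : u * u = 1 :=
  (orderOf_eq_two_iff'.mp ((order_of_comm (π.mem t) h.t_ne huH hu).2.trans h.ord)).1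

theorem x_mem : x ∈ π.c t := by
  by_contra e
  exact h.xx (h.sq h.comm e)

theorem inverts {u : G} (hu : u * t = t * u) (huH : u ∉ π.c t) {y : G} (hy : y ∈ π.c t) :
    u * y * u⁻¹ = y⁻¹ := by
  have h1 := h.sq (u := u * y) (mem_cent.mp (mul_mem (mem_cent.mpr hu) (h.le hy)))
    fun e => huH ((mul_mem_cancel_right hy).mp e)
  rw [inv_eq_of_mul_eq_one_right (h.sq hu huH)]
  exact eq_inv_of_mul_eq_one_left (by rw [← h1]; group)

omit [Finite G] in
theorem exists_s : ∃ s, s * t = t * s ∧ s ∉ π.c t :=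
  let ⟨s, hs, hs'⟩ := SetLike.not_le_iff_exists.mp h.notLe
  ⟨s, mem_cent.mp (h.syl hs), hs'⟩

theorem hcomm {a : G} (ha : a ∈ π.c t) {b : G} (hb : b ∈ π.c t) : a * b = b * a := by
  obtain ⟨s, hs, hsH⟩ := h.exists_s
  have h1 := h.inverts hs hsH (mul_mem ha hb)
  rw [← conj_mul, h.inverts hs hsH ha, h.inverts hs hsH hb, ← mul_inv_rev, inv_inj] at h1
  exact h1.symm

theorem mul_mem' {u v : G} (hu : u * t = t * u) (huH : u ∉ π.c t) (hv : v * t = t * v)
    (hvH : v ∉ π.c t) : u * v ∈ π.c t := by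
  by_contra e
  have h1 := order_of_comm h.x_mem (fun e => h.xx (by rw [e, one_mul])) e (by
    calc u * v * x = u * (v * x * v⁻¹) * u⁻¹ * (u * v) := by group
      _ = (u * x * u⁻¹)⁻¹ * (u * v) := by rw [h.inverts hv hvH h.x_mem]; group
      _ = _ := by rw [h.inverts hu huH h.x_mem, inv_inv])
  have h2 := order_of_comm (π.mem t) h.t_ne e
    (mem_cent.mp (mul_mem (mem_cent.mpr hu) (mem_cent.mpr hv)))
  exact h.xx (orderOf_eq_two_iff'.mp (h1.2.symm.trans (h2.2.trans h.ord))).1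

theorem card_cent : Nat.card (centralizer ({t} : Set G)) = 2 * Nat.card (π.c t) := by
  obtain ⟨s, hs, hsH⟩ := h.exists_s
  have h1 : (π.c t).relIndex (centralizer {t}) = 2 := by
    refine index_eq_two_iff.mpr ⟨⟨s, mem_cent.mpr hs⟩, fun b => ?_⟩
    by_cases hb : (b : G) ∈ π.c t
    · exact Or.inr ⟨hb, fun e => hsH ((mul_mem_cancel_left hb).mp e)⟩
    · exact Or.inl ⟨h.mul_mem' (mem_cent.mp b.2) hb hs hsH, hb⟩
  rw [← card_mul_relIndex h.le, h1, mul_comm]

theorem odd_index : ¬ 2 ∣ (centralizer ({t} : Set G)).index := fun e =>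
  have := Fact.mk Nat.prime_two
  S.not_dvd_index (e.trans (index_dvd_of_le h.syl))

theorem comm_of_inverts {u : G} (hu : u * t * u⁻¹ = t⁻¹) : u * t = t * u := by
  rw [inv_eq_of_mul_eq_one_right h.tt, mul_inv_eq_iff_eq_mul] at hu
  exact hu

theorem norm_le : normalizer (π.c t : Set G) ≤ centralizer {t} := by
  intro g₀ hg₀
  by_contra hg₀C
  obtain ⟨k, r, hr, hgC, hgr⟩ := exists_pow_notMem hg₀C
  have hg := pow_mem hg₀ k
  generalize g₀ ^ k = g at hgC hgr hg
  have hCN : centralizer {t} ≤ normalizer (π.c t : Set G) := fun a ha =>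
    mem_norm_of_comm (π.mem t) h.t_ne (mem_cent.mp ha)
  have hn : ∀ n ∈ normalizer (π.c t : Set G), ∀ c ∈ centralizer ({t} : Set G),
      n * c * n⁻¹ ∈ centralizer ({t} : Set G) := fun n hn c hc => by
    by_cases hcH : c ∈ π.c t
    · exact h.le (conj_mem_of_mem_normalizer hn hcH)
    refine mem_cent.mpr (h.comm_of_inverts ?_)
    calc n * c * n⁻¹ * t * (n * c * n⁻¹)⁻¹ = n * (c * (n⁻¹ * t * n) * c⁻¹) * n⁻¹ := by group
      _ = _ := by
        rw [h.inverts (mem_cent.mp hc) hcH (conj_mem_of_mem_normalizer' hn (π.mem t))]; group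
  have hodd : Odd r := hr.odd_of_ne_two fun e => h.odd_index (by
    subst e
    have := Fact.mk hr
    have : ((centralizer ({t} : Set G)).subgroupOf (normalizer (π.c t : Set G))).Normal :=
      ⟨fun c hc n => hn n n.2 c hc⟩
    have h1 : orderOf ((⟨g, hg⟩ : normalizer (π.c t : Set G)) :
        _ ⧸ (centralizer ({t} : Set G)).subgroupOf (normalizer (π.c t : Set G))) = 2 :=
      orderOf_eq_prime (by rw [← QuotientGroup.mk_pow, QuotientGroup.eq_one_iff]; exact hgr)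
        fun e => by
          rw [QuotientGroup.eq_one_iff] at e
          exact hgC e
    exact (h1.symm.dvd.trans (_root_.orderOf_dvd_natCard _)).trans (relIndex_dvd_index_of_le hCN))
  obtain ⟨a, ha, haC, ha1, ha2⟩ : ∃ a ∈ normalizer (π.c t : Set G), a ∉ centralizer ({t} : Set G) ∧
      a ^ r ∈ centralizer ({t} : Set G) ∧ a ^ r ∉ π.c t := by
    by_cases hH : g ^ r ∈ π.c t
    swap
    · exact ⟨g, hg, hgC, hgr, hH⟩
    obtain ⟨s, hs, hsH⟩ := h.exists_s
    have hg1 := pow_eq_one (fun e => hgC (h.le e)) hH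
    have key : ∀ m : ℕ, ∀ y ∈ π.c t, (g * s) ^ (2 * m + 1) * y * ((g * s) ^ (2 * m + 1))⁻¹ =
        g ^ (2 * m + 1) * y⁻¹ * (g ^ (2 * m + 1))⁻¹ := fun m => by
      have h1 : ∀ y ∈ π.c t, g * s * y * (g * s)⁻¹ = g * y⁻¹ * g⁻¹ := fun y hy => by
        rw [← h.inverts hs hsH hy]; group
      induction m with
      | zero => simpa using h1
      | succ m ih =>
        intro y hy
        have h2 := conj_mem_of_mem_normalizer hg (inv_mem hy)
        have h3 := conj_mem_of_mem_normalizer hg (inv_mem h2)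
        calc (g * s) ^ (2 * (m + 1) + 1) * y * ((g * s) ^ (2 * (m + 1) + 1))⁻¹
            = (g * s) ^ (2 * m + 1) * (g * s * (g * s * y * (g * s)⁻¹) * (g * s)⁻¹) *
              ((g * s) ^ (2 * m + 1))⁻¹ := by
              rw [show 2 * (m + 1) + 1 = 2 * m + 1 + 1 + 1 by ring, pow_succ _ (2 * m + 1 + 1),
                pow_succ _ (2 * m + 1)]
              group
          _ = _ := by
              rw [h1 y hy, h1 _ h2, ih _ h3, show 2 * (m + 1) + 1 = 2 * m + 1 + 1 + 1 by ring,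
                pow_succ _ (2 * m + 1 + 1), pow_succ _ (2 * m + 1)]
              group
    obtain ⟨m, rfl⟩ := hodd
    refine ⟨g * s, mul_mem hg (hCN (mem_cent.mpr hs)),
      fun e => hgC ((mul_mem_cancel_right (mem_cent.mpr hs)).mp e),
      mem_cent.mpr (h.comm_of_inverts (by simpa [hg1] using key m t (π.mem t))), fun e => ?_⟩
    have h1 := key m x h.x_mem
    rw [hg1, h.hcomm e h.x_mem, mul_inv_cancel_right, one_mul, inv_one, mul_one] at h1
    exact h.xx (mul_eq_one_iff_eq_inv.mpr h1)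
  have hs := h.sq (mem_cent.mp ha1) ha2
  have hs1 : a ^ r ≠ 1 := fun e => ha2 (e ▸ one_mem _)
  have htY : t ∉ π.c a := fun e => haC (h.le (mem_of_mem h.t_ne (π.mem t) e))
  have h1 := order_of_comm (pow_mem (π.mem a) r) hs1 (g := t * a ^ 2)
    (fun e => htY ((mul_mem_cancel_right (pow_mem (π.mem a) 2)).mp e)) (by
      rw [mul_assoc, ← pow_add, add_comm, pow_add, ← mul_assoc, ← mem_cent.mp ha1, mul_assoc])
  have h2 := (orderOf_eq_two_iff'.mp (h1.2.trans (orderOf_eq_two_iff'.mpr ⟨hs, hs1⟩))).1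
  have h3 : (a ^ 2) ^ 2 ∈ π.c t := by
    have h4 := mul_mem (π.mem t) (conj_mem_of_mem_normalizer (pow_mem ha 2) (π.mem t))
    rw [← mul_mem_cancel_left h4, pow_two (a ^ 2),
      show t * (a ^ 2 * t * (a ^ 2)⁻¹) * (a ^ 2 * a ^ 2) = t * a ^ 2 * (t * a ^ 2) by group, h2]
    exact one_mem _
  refine haC (mem_of_sq_of_odd hodd (mem_of_sq_of_odd hodd (h.le h3) ?_) ha1)
  rw [← pow_mul, mul_comm, pow_mul]
  exact pow_mem ha1 2

theorem exists_conj : ∃ g : G, g * t * g⁻¹ * t = t * (g * t * g⁻¹) ∧ g * t * g⁻¹ ∉ π.c t := by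
  obtain ⟨g, h1, h2⟩ := exists_conj_comm h.fit h.ord
  refine ⟨g, h1, fun e => h2 ?_⟩
  rw [mem_cent.mp (h.norm_le (mem_norm (π.mem t) h.t_ne e)), mul_inv_cancel_right]

theorem uniq {a : G} (ha : a ∈ π.c t) (haa : a * a = 1) : a = 1 ∨ a = t := by
  by_contra hc
  push Not at hc
  obtain ⟨g, h1, h2⟩ := h.exists_conj
  have key : ∀ b ∈ π.c t, b ≠ 1 → g⁻¹ * b * g ∉ π.c t := fun b hb hb1 e =>
    h2 (mem_of_mem hb1 hb (by simpa [mul_assoc] using π.conj g e))
  have key' : ∀ b ∈ π.c t, b * b = 1 → g⁻¹ * b * g * t = t * (g⁻¹ * b * g) := fun b hb hbb => by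
    have h3 := h.inverts h1 h2 hb
    rw [inv_eq_of_mul_eq_one_right hbb, mul_inv_eq_iff_eq_mul] at h3
    calc g⁻¹ * b * g * t = g⁻¹ * (b * (g * t * g⁻¹)) * g := by group
      _ = _ := by rw [← h3]; group
  have h3 := h.mul_mem' (key' t (π.mem t) h.tt) (key t (π.mem t) h.t_ne) (key' a ha haa)
    (key a ha hc.1)
  refine key (t * a) (mul_mem (π.mem t) ha) (fun e => hc.2 ?_) (by simpa [mul_assoc] using h3)
  rw [eq_inv_of_mul_eq_one_right e, inv_eq_of_mul_eq_one_right h.tt]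

theorem four : 4 ≤ Nat.card (π.c t) := by
  have := Fintype.ofFinite (π.c t)
  have h1 : 2 ∣ Nat.card (π.c t) := h.ord ▸ orderOf_dvd_natCard _ (π.mem t)
  have h2 : 2 < Nat.card (π.c t) := by
    rw [Nat.card_eq_fintype_card]
    refine Fintype.two_lt_card_iff.mpr ⟨1, ⟨t, π.mem t⟩, ⟨x, h.x_mem⟩,
      fun e => h.t_ne (congrArg Subtype.val e).symm, fun e => h.xx ?_, fun e => h.xx ?_⟩
    · rw [← (show (1 : G) = x from congrArg Subtype.val e), one_mul]
    · rw [← (show t = x from congrArg Subtype.val e), h.tt]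
  omega

theorem cent {y : G} (hy : y ∈ π.c t) (hy1 : y ≠ 1) {g : G} (hg : g * y = y * g) :
    g * t = t * g := mem_cent.mp (h.norm_le (mem_norm_of_comm hy hy1 hg))

theorem exists_conj_cent {u : G} (hu : orderOf u = 2) :
    ∃ g : G, g * u * g⁻¹ * t = t * (g * u * g⁻¹) := by
  have := Fact.mk Nat.prime_two
  obtain ⟨g, hg⟩ := exists_conj_mem_sylow S (u := u) (k := 1) (by rw [hu, pow_one])
  exact ⟨g, mem_cent.mp (h.syl hg)⟩

open scoped IsMulCommutative in
theorem exists_sq : ∃ Q : Subgroup G, Q ≤ π.c t ∧ 2 * Nat.card Q = Nat.card (π.c t) ∧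
    (∀ q, q ∈ Q ↔ ∃ a ∈ π.c t, a * a = q) ∧ ∀ a ∈ π.c t, ∀ b ∈ π.c t, a ∉ Q → b ∉ Q → a * b ∈ Q := by
  have : IsMulCommutative (π.c t) := BSW.isMulCommutative_iff'.mpr fun a ha b hb => h.hcomm ha hb
  let f : π.c t →* π.c t := powMonoidHom 2
  have h1 : f.range.index = 2 := by
    rw [index_range]
    refine (Nat.card_eq_two_iff' 1).mpr ⟨⟨⟨t, π.mem t⟩, Subtype.ext (by simpa [f, pow_two] using h.tt)⟩,
      fun e => h.t_ne (congrArg (fun z : f.ker => ((z : π.c t) : G)) e), fun b hb => ?_⟩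
    refine Subtype.ext (Subtype.ext ((h.uniq (b : π.c t).2 ?_).resolve_left fun e =>
      hb (Subtype.ext (Subtype.ext e))))
    simpa [f, pow_two] using congrArg Subtype.val b.2
  refine ⟨f.range.map (π.c t).subtype, map_subtype_le _, by
    rw [card_subtype, ← h1, index_mul_card], fun q => ⟨?_, ?_⟩, fun a ha b hb h2 h3 => ?_⟩
  · rintro ⟨_, ⟨a, rfl⟩, rfl⟩
    exact ⟨a, a.2, by simp [f, pow_two]⟩
  · rintro ⟨a, ha, rfl⟩
    exact ⟨_, ⟨⟨a, ha⟩, rfl⟩, by simp [f, pow_two]⟩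
  · exact ⟨⟨a, ha⟩ * ⟨b, hb⟩, (mul_mem_iff_of_index_two h1).mpr
      (iff_of_false (fun e => h2 ⟨_, e, rfl⟩) fun e => h3 ⟨_, e, rfl⟩), rfl⟩

theorem main (hN : ∀ x, x ≠ 1 → ¬ normalizer (π.c x : Set G) ≤ π.c x) :
    (∃ (F : Type) (_ : Field F) (_ : Fintype F), 4 ≤ Fintype.card F ∧
        Nonempty (G ≃* Matrix.ProjectiveSpecialLinearGroup (Fin 2) F)) ∨
    (∃ (F : Type) (_ : Field F) (_ : Fintype F), 5 ≤ Fintype.card F ∧ Odd (Fintype.card F) ∧
        Nonempty (G ≃* (GL (Fin 2) F ⧸ Subgroup.center (GL (Fin 2) F)))) := by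
  classical
  obtain ⟨g₁, hs, hsH⟩ := h.exists_conj
  set s := g₁ * t * g₁⁻¹ with hsdef
  by_cases hall : ∀ u, orderOf u = 2 → ∃ g, g * t * g⁻¹ = u
  · have hS : Setup (π.c t) t s := ⟨h.ord, π.mem t, fun y hy => mem_cent.mp (h.le hy),
      fun _ => h.uniq, h.four, hs, hsH, fun _ => h.sq, fun y hy hy1 _ => h.cent hy hy1, hall⟩
    obtain ⟨F, i1, i2, h1, h2⟩ := hS.psl
    have := h.four
    exact Or.inl ⟨F, i1, i2, by omega, h2⟩
  right
  push Not at hall
  obtain ⟨u, hu, hut⟩ := hall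
  obtain ⟨g₂, hv⟩ := h.exists_conj_cent hu
  have hv2 : orderOf (g₂ * u * g₂⁻¹) = 2 := by rw [Frob.orderOf_conj_eq, hu]
  have hvt : ∀ g, g * t * g⁻¹ ≠ g₂ * u * g₂⁻¹ := fun g e => hut (g₂⁻¹ * g) (by
    rw [show g₂⁻¹ * g * t * (g₂⁻¹ * g)⁻¹ = g₂⁻¹ * (g * t * g⁻¹) * g₂ by group, e]; group)
  generalize g₂ * u * g₂⁻¹ = v at hv hv2 hvt
  obtain ⟨hvv, hv1⟩ := orderOf_eq_two_iff'.mp hv2
  have hvH : v ∉ π.c t := fun e => hvt 1 (by simpa using ((h.uniq e hvv).resolve_left hv1).symm)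
  obtain ⟨Q, hQH, hQc, hQ, hQ2⟩ := h.exists_sq
  have hss := h.sq hs hsH
  have hconj : ∀ w, w * t = t * w → w ∉ π.c t → ∀ q ∈ Q, ∃ a, a * w * a⁻¹ = q * w :=
      fun w hw hwH q hq => by
    obtain ⟨a, ha, rfl⟩ := (hQ q).mp hq
    refine ⟨a, ?_⟩
    calc a * w * a⁻¹ = a * (w * a * w⁻¹)⁻¹ * w := by group
      _ = _ := by rw [h.inverts hw hwH ha, inv_inv]
  have hsn : zpowers s ≤ normalizer (Q : Set G) :=
    zpowers_le.mpr (mem_normalizer_of_conj_mem fun q hq => by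
      rw [h.inverts hs hsH (hQH hq)]; exact inv_mem hq)
  have hs2 : orderOf s = 2 := by rw [hsdef, Frob.orderOf_conj_eq, h.ord]
  have hzs : ∀ a ∈ zpowers s, a = 1 ∨ a = s := fun a ha => by
    rw [mem_zpowers_iff_mem_range_orderOf, hs2] at ha
    simp only [Finset.mem_image, Finset.mem_range] at ha
    obtain ⟨k, hk, rfl⟩ := ha
    interval_cases k <;> simp
  obtain ⟨f, hf⟩ := H5.exists_hom_eq_neg_one_of_forall_conj_notMem (M := zpowers s ⊔ Q) (t := v)
    (by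
      have h1 := card_sup_of_disjoint hsn (eq_bot_iff.mpr fun a ha => by
        rcases hzs a ha.1 with e | e
        · exact e
        · exact absurd (hQH (e ▸ ha.2)) hsH)
      have h2 := (zpowers s ⊔ Q).card_mul_index
      have h3 := (centralizer ({t} : Set G)).card_mul_index
      have h4 := h.odd_index
      rw [Nat.card_zpowers, hs2, hQc] at h1
      rw [h1, ← h3, h.card_cent, mul_comm 2, mul_assoc] at h2
      have h5 := Nat.eq_of_mul_eq_mul_left Nat.card_pos h2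
      omega) (by rw [pow_two, hvv]) fun g hg => by
      obtain ⟨a, ha, q, hq, e⟩ := (mem_sup_iff_of_le_normalizer hsn).mp hg
      rcases hzs a ha with rfl | rfl
      · rw [one_mul] at e
        have e1 : g⁻¹ * v * g * (g⁻¹ * v * g) = g⁻¹ * (v * v) * g := by group
        rcases h.uniq (hQH hq) (by rw [e, e1, hvv]; simp) with e' | e'
        · exact hv1 (by simpa [e', mul_assoc] using congrArg (fun z => g * z * g⁻¹) e.symm)
        · exact hvt g (by rw [← e', e]; group)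
      · obtain ⟨b, hb⟩ := hconj s hs hsH _ (inv_mem hq)
        refine hvt (g * b * g₁) ?_
        calc g * b * g₁ * t * (g * b * g₁)⁻¹ = g * (b * s * b⁻¹) * g⁻¹ := by rw [hsdef]; group
          _ = g * ((s * q * s⁻¹) * s) * g⁻¹ := by rw [hb, h.inverts hs hsH (hQH hq)]
          _ = _ := by rw [inv_mul_cancel_right, e]; group
  have hfc : ∀ a b, f (a * b * a⁻¹) = f b := fun a b => by
    rw [map_mul, map_mul, mul_right_comm, ← map_mul, mul_inv_cancel, map_one, one_mul]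
  have hvs : v * s ∉ Q := fun e => by
    obtain ⟨b, hb⟩ := hconj s hs hsH _ e
    refine hvt (b * g₁) ?_
    rw [mul_assoc v, hss, mul_one] at hb
    rw [← hb, hsdef]; group
  have two : ∀ w, w * t = t * w → w ∉ π.c t → f w = 1 → ∃ g, g * t * g⁻¹ = w := fun w hw hwH hfw => by
    have h1 := h.mul_mem' hw hwH hs hsH
    by_cases h2 : w * s ∈ Q
    · obtain ⟨b, hb⟩ := hconj s hs hsH _ h2
      rw [mul_assoc w, hss, mul_one] at hb
      exact ⟨b * g₁, by rw [← hb, hsdef]; group⟩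
    · have h3 := h.mul_mem' hv hvH hs hsH
      obtain ⟨b, hb⟩ := hconj v hv hvH _ (hQ2 _ h1 _ (inv_mem h3) h2 fun e => hvs (inv_mem_iff.mp e))
      have h4 : b * v * b⁻¹ = w := by
        rw [hb, mul_inv_rev, inv_eq_of_mul_eq_one_right hss]
        calc w * s * (s * v⁻¹) * v = w * (s * s) := by group
          _ = w := by rw [hss, mul_one]
      rw [← h4, hfc, hf] at hfw
      exact absurd hfw (by decide)
  have hft : f t = 1 := by
    have h1 : f (t * s) = 1 := by rw [map_mul, hsdef, hfc, ← map_mul, h.tt, map_one]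
    obtain ⟨g, hg⟩ := two (t * s) (by rw [mul_assoc, hs])
      (fun e => hsH ((mul_mem_cancel_left (π.mem t)).mp e)) h1
    rw [← hfc g, hg, h1]
  set L := f.ker with hL
  have hLi : L.index = 2 := by
    rw [hL, index_ker, MonoidHom.range_eq_top.mpr fun z => ?_, card_top]
    · simp
    rcases Int.units_eq_one_or z with rfl | rfl
    exacts [⟨1, map_one f⟩, ⟨v, hf⟩]
  have htL : t ∈ L := hft
  have hsL : s ∈ L := by rw [hL, MonoidHom.mem_ker, hsdef, hfc, hft]
  have hvL : v ∉ L := fun e => by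
    rw [hL, MonoidHom.mem_ker, hf] at e
    exact absurd e (by decide)
  have hinv : ∀ a ∈ L, orderOf a = 2 → ∃ g ∈ L, g * t * g⁻¹ = a := fun a ha ha2 => by
    obtain ⟨g, hg⟩ : ∃ g, g * t * g⁻¹ = a := by
      obtain ⟨k, hk⟩ := h.exists_conj_cent ha2
      have h1 : orderOf (k * a * k⁻¹) = 2 := by rw [Frob.orderOf_conj_eq, ha2]
      by_cases h2 : k * a * k⁻¹ ∈ π.c t
      · refine ⟨k⁻¹, ?_⟩
        rw [← (h.uniq h2 (orderOf_eq_two_iff'.mp h1).1).resolve_left (orderOf_eq_two_iff'.mp h1).2]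
        group
      · obtain ⟨g, hg⟩ := two _ hk h2 (by rw [hfc]; exact ha)
        refine ⟨k⁻¹ * g, ?_⟩
        rw [show k⁻¹ * g * t * (k⁻¹ * g)⁻¹ = k⁻¹ * (g * t * g⁻¹) * k by group, hg]; group
    by_cases hgL : g ∈ L
    · exact ⟨g, hgL, hg⟩
    · refine ⟨g * v, (mul_mem_iff_of_index_two hLi).mpr (iff_of_false hgL hvL), ?_⟩
      rw [← hg, mul_assoc g, hv]; group
  have hinv' : ∀ a : L, orderOf a = 2 → ∃ g : L, g * ⟨t, htL⟩ * g⁻¹ = a := fun a ha => by
    obtain ⟨g, hg, e⟩ := hinv a a.2 (by rw [orderOf_coe, ha])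
    exact ⟨⟨g, hg⟩, Subtype.ext e⟩
  have ht2 : orderOf (⟨t, htL⟩ : L) = 2 := by rw [orderOf_mk, h.ord]
  suffices H : ∃ (P : Subgroup L) (w : L), ZAb P w ∧ Nat.card P = 2 * Nat.card (twoPt P w) + 1 ∧
      5 ≤ Nat.card P by
    obtain ⟨P, w, Z, h1, h2⟩ := H
    obtain ⟨F, i1, i2, h3, h4⟩ := pgl hN h.fit hLi (fun a ha ha2 z hz hz2 => by
      obtain ⟨g, -, rfl⟩ := hinv a ha ha2
      have h5 : g⁻¹ * z * g ∈ π.c t := by simpa [mul_assoc] using π.conj g⁻¹ hz
      have h6 := orderOf_eq_two_iff'.mp ((H5.orderOf_conj'' g z).trans hz2)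
      rw [← (h.uniq h5 h6.1).resolve_left h6.2]; group) Z h1
    exact ⟨F, i1, i2, h3 ▸ h2, by rw [h3, h1]; simp, h4⟩
  set K := (π.c t).subgroupOf L with hK
  by_cases h4 : 4 ≤ Nat.card K
  · have hS : Setup K ⟨t, htL⟩ ⟨s, hsL⟩ := ⟨ht2, π.mem t,
      fun y hy => Subtype.ext (mem_cent.mp (h.le hy)),
      fun y hy e => (h.uniq hy (congrArg Subtype.val e)).imp Subtype.ext Subtype.ext, h4,
      Subtype.ext hs, hsH, fun y hy e => Subtype.ext (h.sq (congrArg Subtype.val hy) e),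
      fun y hy hy1 g hg => Subtype.ext (h.cent hy (fun e => hy1 (Subtype.ext e))
        (congrArg Subtype.val hg)), hinv'⟩
    obtain ⟨P, w, Z, h1, h2⟩ := hS.exists_zAb
    exact ⟨P, w, Z, h1, by omega⟩
  have hK2 : Nat.card K = 2 := by
    have h1 : 2 ∣ Nat.card K := ht2 ▸ orderOf_dvd_natCard K (π.mem t)
    have h2 : 0 < Nat.card K := Nat.card_pos
    omega
  have hFL : fittingSubgroup L = ⊥ := by
    have := map_fitting_le_of_isSubnormal (H := L) (Normal.isSubnormal inferInstance)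
    rwa [h.fit, le_bot_iff, map_eq_bot_iff_of_injective _ L.subtype_injective] at this
  set C := centralizer ({(⟨t, htL⟩ : L)} : Set L) with hC
  have hKC : K ≤ C := fun y hy => mem_cent.mpr (Subtype.ext (mem_cent.mp (h.le hy)))
  have hC4 : Nat.card C = 4 := by
    have h1 : K.relIndex C = 2 := by
      refine index_eq_two_iff.mpr ⟨⟨⟨s, hsL⟩, mem_cent.mpr (Subtype.ext hs)⟩, fun b => ?_⟩
      by_cases hb : ((b : L) : G) ∈ π.c t
      · exact Or.inr ⟨hb, fun e => hsH ((mul_mem_cancel_left hb).mp e)⟩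
      · exact Or.inl ⟨h.mul_mem' (congrArg Subtype.val (mem_cent.mp b.2)) hb hs hsH, hb⟩
    rw [← card_mul_relIndex hKC, h1, hK2]
  have hC2 : ∀ y ∈ C, y * y = 1 := fun y hy => by
    by_cases hyK : y ∈ K
    · have := orderOf_dvd_iff_pow_eq_one.mp (hK2 ▸ orderOf_dvd_natCard K hyK)
      rwa [pow_two] at this
    · exact Subtype.ext (h.sq (congrArg Subtype.val (mem_cent.mp hy)) hyK)
  have hCc : ∀ a ∈ C, ∀ b ∈ C, a * b = b * a := fun a ha b hb => by
    rw [← inv_eq_of_mul_eq_one_right (hC2 _ (mul_mem ha hb)), mul_inv_rev,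
      inv_eq_of_mul_eq_one_right (hC2 a ha), inv_eq_of_mul_eq_one_right (hC2 b hb)]
  have hcard4 : ∀ a : L, orderOf a = 2 → Nat.card (centralizer ({a} : Set L)) = 4 := fun a ha => by
    obtain ⟨g, rfl⟩ := hinv' a ha
    rw [Frob.card_centralizer_conj, hC4]
  have ht1 := (orderOf_eq_two_iff'.mp ht2).2
  have hti : CentTI C := centTI_of_cent_le (fun w hw hw1 => (eq_of_le_of_card_le
    (fun b hb => mem_cent.mpr (hCc b hb w hw))
    (by rw [hC4, hcard4 w (orderOf_eq_two_iff'.mpr ⟨hC2 w hw, hw1⟩)])).ge) ht1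
  have hCcm : IsMulCommutative C := BSW.isMulCommutative_iff'.mpr hCc
  have hC1 : C ≠ ⊥ := fun e => ht1 (e.le (self_mem_cent _))
  have hCn : ¬ C.Normal := fun e => hC1 (eq_bot_of_isSolvable hFL isSolvable_of_isMulCommutative)
  obtain ⟨z, Z⟩ := hti.exists_zSetup ht2 (self_mem_cent _) (fun k hk => mem_cent.mp hk) hCn
    fun e => by
      have := isSolvable_of_complement_solvable
        (hti.isFrobeniusComplement e hC1 fun e' => hCn (e' ▸ inferInstance))
        isSolvable_of_isMulCommutative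
      exact ht1 ((eq_bot_of_isSolvable hFL (N := ⊤) inferInstance).le (mem_top _))
  rcases Z.zt with ⟨n, hn, -, h1, -, ⟨e⟩, -⟩ | ⟨-, h1, -⟩
  swap
  · exact absurd hCcm h1
  have h60 : Nat.card L = 60 := by
    rw [Nat.card_congr e.toEquiv, SL2C.card_SL2, GaloisField.card 2 n (by omega), ← h1, hC4]
    norm_num
  obtain ⟨P, w, Z', h2, h3⟩ := zAb_five hFL h60 hcard4 ht2 hC2
  exact ⟨P, w, Z', by rw [h2, h3], h2.ge⟩

end Dih

theorem classification [Nontrivial G] (ht : ∀ x, π.c x ≠ ⊤) :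
    Nonempty (G ≃* Equiv.Perm (Fin 4)) ∨
    (∃ p : ℕ, p.Prime ∧ Subgroup.closure {g : G | g ^ p ≠ 1} ≠ ⊤) ∨
    (∃ H : Subgroup G, Cfsg.IsFrobeniusComplement H) ∨
    (∃ (F : Type) (_ : Field F) (_ : Fintype F), 4 ≤ Fintype.card F ∧
        Nonempty (G ≃* Matrix.ProjectiveSpecialLinearGroup (Fin 2) F)) ∨
    (∃ (F : Type) (_ : Field F) (_ : Fintype F), 5 ≤ Fintype.card F ∧ Odd (Fintype.card F) ∧
        Nonempty (G ≃* (GL (Fin 2) F ⧸ Subgroup.center (GL (Fin 2) F)))) ∨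
    Cfsg.Lie.IsoSuzuki G := by
  by_cases hN : ∀ x, x ≠ 1 → ¬ normalizer (π.c x : Set G) ≤ π.c x
  swap
  · push Not at hN
    obtain ⟨x, hx, h⟩ := hN
    exact Or.inr (Or.inr (Or.inl ⟨_, frob hx (ht x) h⟩))
  by_cases hF : fittingSubgroup G = ⊥
  swap
  · exact (of_fitting_ne_bot ht hN hF).imp id (Or.imp id Or.inl)
  refine Or.inr (Or.inr (Or.inr ?_))
  have := Fact.mk Nat.prime_two
  have hns : ¬ Group.IsSolvable G := fun _ => fitting_ne_bot hF
  have h2 : 2 ∣ Nat.card G := by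
    by_contra e
    exact hns (FT.feit_thompson (Nat.odd_iff.mpr (by omega)))
  have hpsl : ∀ n : ℕ, 2 ≤ n →
      Nonempty (G ≃* Matrix.ProjectiveSpecialLinearGroup (Fin 2) (GaloisField 2 n)) →
      ∃ (F : Type) (_ : Field F) (_ : Fintype F), 4 ≤ Fintype.card F ∧
        Nonempty (G ≃* Matrix.ProjectiveSpecialLinearGroup (Fin 2) F) := fun n hn e => by
    letI := Fintype.ofFinite (GaloisField 2 n)
    refine ⟨GaloisField 2 n, inferInstance, inferInstance, ?_, e⟩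
    rw [← Nat.card_eq_fintype_card, GaloisField.card 2 n (by omega)]
    exact Nat.pow_le_pow_right (n := 2) (by norm_num) hn
  let S : Sylow 2 G := default
  by_cases hI : ∃ t, orderOf t = 2 ∧ (S : Subgroup G) ≤ centralizer {t} ∧ (S : Subgroup G) ≤ π.c t
  · obtain ⟨t, ht2, hS, hSH⟩ := hI
    have ht1 := (orderOf_eq_two_iff'.mp ht2).2
    obtain ⟨z, Z⟩ := (centTI hN hF ht2 S hS hSH).exists_zSetup ht2 (π.mem t)
      (fun k hk => mem_cent.mp (le_cent hN ht2 S hS hk))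
      (fun _ => ht1 (hF.le (le_fitting (isNilpotent (hN t ht1)) (π.mem t)))) (hN t ht1)
    rcases Z.zt with ⟨n, hn, -, -, -, -, e⟩ | ⟨-, -, -, F, i1, i2, m, h1, h2, -, e⟩
    · exact Or.inl (hpsl n hn e)
    · exact Or.inr (Or.inr ⟨F, i1, i2, m, h1, h2, e⟩)
  push Not at hI
  by_cases hA : ∃ t, orderOf t = 2 ∧ (S : Subgroup G) ≤ centralizer {t} ∧
      ∃ x ∈ centralizer ({t} : Set G), x * x ≠ 1
  · obtain ⟨t, ht2, hS, x, hx, hxx⟩ := hA
    exact (Dih.main ⟨hF, ht2, hS, le_cent hN ht2 S hS, hI t ht2 hS, mem_cent.mp hx, hxx⟩ hN).imp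
      id Or.inl
  push Not at hA
  have key : ∀ t, orderOf t = 2 → (S : Subgroup G) ≤ centralizer {t} →
      ∀ a ∈ centralizer ({t} : Set G), ∀ b ∈ centralizer ({t} : Set G), a * b = b * a :=
      fun t h1 h2 a ha b hb => by
    rw [← inv_eq_of_mul_eq_one_right (hA t h1 h2 _ (mul_mem ha hb)), mul_inv_rev,
      inv_eq_of_mul_eq_one_right (hA t h1 h2 a ha), inv_eq_of_mul_eq_one_right (hA t h1 h2 b hb)]
  obtain ⟨t, -, ht2, hS⟩ := exists_central_of_sylow S h2
  have hti : CentTI (centralizer ({t} : Set G)) := centTI_of_cent_le (fun w hw hw1 g hg =>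
    mem_cent.mpr (key w (orderOf_eq_two_iff'.mpr ⟨hA t ht2 hS w hw, hw1⟩)
      (fun s hs => mem_cent.mpr (key t ht2 hS s (hS hs) w hw)) g hg t (mem_cent_comm hw)))
    (orderOf_eq_two_iff'.mp ht2).2
  rcases hti.solvable_or_psl (BSW.isMulCommutative_iff'.mpr (key t ht2 hS)) ht2
    (self_mem_cent t) with h | ⟨n, hn, e⟩
  · exact absurd h hns
  · exact Or.inl (hpsl n hn e)

end CfsgLib.Part.Part
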