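import Cfsg.Agent.Lib.Part.Basic
import Cfsg.Agent.Lib.BSW.Odd

/-! Groups with a partition having a subgroup `PSL₂(q)` of index two. -/

namespace CfsgLib.Part.Part

open Subgroup Cfsg CfsgLib.BSW

variable {G : Type*} [Group G] [Finite G] {π : Part G}

theorem exists_conj_not_comm (hF : fittingSubgroup G = ⊥) {a : G} (ha : a ≠ 1) :
    ∃ g : G, g * a * g⁻¹ * a ≠ a * (g * a * g⁻¹) := by
  by_contra h
  push Not at h
  have h1 : ∀ x ∈ Group.conjugatesOfSet {a}, ∀ y ∈ Group.conjugatesOfSet {a}, x * y = y * x := by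
    intro x hx y hy
    simp only [Group.mem_conjugatesOfSet_iff, Set.mem_singleton_iff, exists_eq_left] at hx hy
    obtain ⟨g, rfl⟩ := isConj_iff.mp hx
    obtain ⟨k, rfl⟩ := isConj_iff.mp hy
    calc g * a * g⁻¹ * (k * a * k⁻¹) = k * (k⁻¹ * g * a * (k⁻¹ * g)⁻¹ * a) * k⁻¹ := by group
      _ = _ := by rw [h]; group
  have h2 : normalClosure {a} ≤ centralizer (normalClosure {a} : Set G) := by
    rw [normalClosure, centralizer_closure]
    exact (closure_le _).mpr fun x hx => mem_centralizer_iff.mpr fun y hy => h1 y hy x hx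
  have : IsMulCommutative (normalClosure {a}) :=
    BSW.isMulCommutative_iff'.mpr fun x hx y hy => mem_centralizer_iff.mp (h2 hy) x hx
  exact ha (hF.le (le_fitting_of_isMulCommutative (subset_normalClosure (Set.mem_singleton a))))

theorem pgl (hN : ∀ x, x ≠ 1 → ¬ normalizer (π.c x : Set G) ≤ π.c x)
    (hF : fittingSubgroup G = ⊥) {L : Subgroup G} (hL : L.index = 2)
    (hu : ∀ a ∈ L, orderOf a = 2 → ∀ z ∈ π.c a, orderOf z = 2 → z = a) {P₀ : Subgroup L} {w₀ : L}
    (Z : ZAb P₀ w₀) (hc : Nat.card P₀ = 2 * Nat.card (twoPt P₀ w₀) + 1) :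
    ∃ (F : Type) (_ : Field F) (_ : Fintype F), Fintype.card F = Nat.card P₀ ∧
      Nonempty (G ≃* (GL (Fin 2) F ⧸ Subgroup.center (GL (Fin 2) F))) := by
  have hLn := normal_of_index_eq_two hL
  set P := P₀.map L.subtype with hP
  have hPL : P ≤ L := map_subtype_le _
  have hmem : ∀ {g} (hg : g ∈ L), (⟨g, hg⟩ : L) ∈ P₀ ↔ g ∈ P := fun hg =>
    ⟨fun h => ⟨_, h, rfl⟩, fun ⟨_, h, e⟩ => (Subtype.ext e : _ = (⟨_, hg⟩ : L)) ▸ h⟩
  have hcard : Nat.card P = Nat.card P₀ := card_subtype _ _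
  have hsub : P.subgroupOf L = P₀ := comap_map_eq_self_of_injective L.subtype_injective _
  have hnorm : (normalizer (P : Set G)).subgroupOf L = normalizer (P₀ : Set L) := by
    rw [subgroupOf_normalizer_eq hPL, hsub]
  have hnm : ∀ g : L, g ∈ normalizer (P₀ : Set L) ↔ (g : G) ∈ normalizer (P : Set G) := fun g => by
    rw [← hnorm, mem_subgroupOf]
  have hcomm : ∀ a ∈ P, ∀ b ∈ P, a * b = b * a := by
    rintro _ ⟨a, ha, rfl⟩ _ ⟨b, hb, rfl⟩
    exact congrArg Subtype.val (Z.comm a ha b hb)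
  have hcent : ∀ y ∈ P, y ≠ 1 → ∀ g ∈ L, g * y = y * g → g ∈ P := fun y hy hy1 g hg h =>
    (hmem hg).mp (Z.cti.cent ⟨y, hPL hy⟩ ((hmem _).mpr hy) (fun e => hy1 (congrArg Subtype.val e))
      ⟨g, hg⟩ (Subtype.ext h))
  have hodd : ∀ x ∈ P, x * x = 1 → x = 1 := fun x hx h => by
    by_contra h1
    have h2 := orderOf_dvd_natCard _ hx
    rw [orderOf_eq_two_iff'.mpr ⟨h, h1⟩, hcard, hc] at h2
    omega
  have hout : ∀ a b, a ∉ L → b ∉ L → a * b ∈ L := fun a b ha hb =>
    (mul_mem_iff_of_index_two hL).mpr (iff_of_false ha hb)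
  have hC : ∀ y ∈ P, y ≠ 1 → ∀ g, g * y = y * g → g ∈ P := fun y hy hy1 g hg => by
    by_contra hgP
    have hgL : g ∉ L := fun e => hgP (hcent y hy hy1 g e hg)
    have hg2 : g ^ 2 ∈ P := hcent y hy hy1 _ (by rw [pow_two]; exact hout g g hgL hgL)
      (Commute.pow_left hg 2).eq
    set a := g ^ Nat.card P with ha
    have haa : a * a = 1 := by
      rw [ha, ← pow_two, ← pow_mul, mul_comm, pow_mul]
      exact orderOf_dvd_iff_pow_eq_one.mp (orderOf_dvd_natCard _ hg2)
    have haL : a ∉ L := by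
      rw [ha, hcard, hc, pow_succ, pow_mul]
      exact fun e => hgL ((mul_mem_cancel_left (pow_mem (hPL hg2) _)).mp e)
    have hay : a * y = y * a := (Commute.pow_left hg _).eq
    clear_value a
    have ha1 : a ≠ 1 := fun e => haL (e ▸ one_mem _)
    have ha2 := orderOf_eq_two_iff'.mpr ⟨haa, ha1⟩
    have haY : a ∈ π.c y := mem_of_comm (π.mem y) hy1 hay fun e =>
      hy1 (hodd y hy (orderOf_eq_two_iff'.mp (e.symm.trans ha2)).1)
    have haP : ∀ x ∈ P, a * x = x * a := fun x hx => by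
      have h1 : a * x⁻¹ * a⁻¹ ∈ P := hcent y hy hy1 _ (hLn.conj_mem _ (hPL (inv_mem hx)) a) (by
        have h2 := hcomm _ (inv_mem hx) y hy
        calc a * x⁻¹ * a⁻¹ * y = a * x⁻¹ * a⁻¹ * (y * a) * a⁻¹ := by group
          _ = a * (x⁻¹ * y) * a⁻¹ := by rw [← hay]; group
          _ = (a * y) * x⁻¹ * a⁻¹ := by rw [h2]; group
          _ = _ := by rw [hay]; group)
      have h2 : x * a * x⁻¹ * a⁻¹ ∈ P := by
        rw [mul_assoc, mul_assoc, ← mul_assoc a]
        exact mul_mem hx h1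
      have h3 : x * a * x⁻¹ * a⁻¹ ∈ π.c y := mul_mem (conj_mem_of_mem_normalizer
        (mem_norm_of_comm (π.mem y) hy1 (hcomm x hx y hy)) haY) (inv_mem haY)
      have h4 := commute_of_coprime_of_mem_isNilpotent (isNilpotent (hN y hy1)) h3 haY (by
        rw [ha2]
        refine Nat.Coprime.coprime_dvd_left (orderOf_dvd_natCard _ h2) ?_
        rw [hcard, hc]
        simp)
      have h5 := h4.mul_pow 2
      rw [inv_mul_cancel_right, conj_pow, pow_two a, haa, mul_one, mul_one, mul_inv_cancel,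
        pow_two] at h5
      have h6 := hodd _ h2 h5.symm
      rw [mul_inv_eq_one, mul_inv_eq_iff_eq_mul] at h6
      exact h6.symm
    have haN : ∀ n ∈ normalizer (P : Set G), a * n = n * a := fun n hn => by
      have h1 : n * a * n⁻¹ ∉ L := fun e => haL (by simpa [mul_assoc] using hLn.conj_mem' _ e n)
      have h2 : a * (n * a * n⁻¹) ∈ P := hcent y hy hy1 _ (hout _ _ haL h1) (by
        have h3 := haP _ (conj_mem_of_mem_normalizer' hn hy)
        calc a * (n * a * n⁻¹) * y = a * n * (a * (n⁻¹ * y * n)) * n⁻¹ := by group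
          _ = (a * y) * (n * a * n⁻¹) := by rw [h3]; group
          _ = _ := by rw [hay]; group)
      have h3 := haP _ h2
      have h4 := hodd _ h2 (by
        rw [← mul_assoc, ← h3, ← mul_assoc a a, haa, one_mul, conj_mul, haa]; simp)
      have h5 : n * a * n⁻¹ = a := by
        rw [eq_inv_of_mul_eq_one_right h4, inv_eq_of_mul_eq_one_right haa]
      rw [mul_inv_eq_iff_eq_mul] at h5
      exact h5.symm
    have haN' : a ∈ normalizer (P : Set G) := mem_normalizer_of_conj_mem fun x hx => by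
      rwa [haP x hx, mul_inv_cancel_right]
    have key : ∀ k ∈ L, k⁻¹ * a * k ∈ normalizer (P : Set G) := fun k hk => by
      by_cases hkN : k ∈ normalizer (P : Set G)
      · exact mul_mem (mul_mem (inv_mem hkN) haN') hkN
      obtain ⟨x, hx, hn⟩ := Z.cti.two_trans Z.index (g := ⟨k, hk⟩)
        (g' := ⟨a * k * a⁻¹, hLn.conj_mem k hk a⟩) (fun e => hkN ((hnm _).mp e)) fun e => hkN (by
          have := mul_mem (mul_mem (inv_mem haN') ((hnm _).mp e)) haN'
          simpa [mul_assoc] using this)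
      have hn' : ((x : G) * k)⁻¹ * (a * k * a⁻¹) ∈ normalizer (P : Set G) := (hnm _).mp hn
      have hx' : (x : G) ∈ P := ⟨x, hx, rfl⟩
      set n := ((x : G) * k)⁻¹ * (a * k * a⁻¹) with hndef
      have h1 : a * k * a⁻¹ = x * k * n := by rw [hndef]; group
      have h2 : k = x * (x * k * n) * n := by
        calc k = (a * a) * k * (a * a)⁻¹ := by rw [haa]; group
          _ = a * (x * k * n) * a⁻¹ := by rw [← h1]; group
          _ = (a * x) * a⁻¹ * (a * k * a⁻¹) * ((a * n) * a⁻¹) := by group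
          _ = _ := by rw [haP x hx', haN n hn', h1]; group
      have h3 := Z.cti.eq_one_of_conj_mem_norm (g := ⟨k, hk⟩) (fun e => hkN ((hnm _).mp e))
        (mul_mem hx hx) ((hnm _).mpr (by
          have : k⁻¹ * (x * x) * k = (n * n)⁻¹ := by
            rw [eq_inv_iff_mul_eq_one]
            calc k⁻¹ * (x * x) * k * (n * n) = k⁻¹ * (x * (x * k * n) * n) := by group
              _ = 1 := by rw [← h2, inv_mul_cancel]
          change k⁻¹ * (x * x) * k ∈ _
          rw [this]
          exact inv_mem (mul_mem hn' hn')))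
      have h4 := hodd x hx' (congrArg Subtype.val h3)
      rw [h4, one_mul] at h1
      rw [show k⁻¹ * a * k = k⁻¹ * (a * k * a⁻¹) * a by group, h1, ← mul_assoc, inv_mul_cancel,
        one_mul]
      exact mul_mem hn' haN'
    obtain ⟨k, hk⟩ := exists_conj_not_comm hF ha1
    refine hk (haN _ ?_).symm
    by_cases hkL : k ∈ L
    · simpa using key k⁻¹ (inv_mem hkL)
    · have := key _ (inv_mem (hout k a hkL haL))
      simpa [mul_assoc] using this
  obtain ⟨⟨y, hy⟩, hy1⟩ := ne_bot_iff_exists_ne_one.mp Z.ne_bot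
  have hyP : (y : G) ∈ P := ⟨y, hy, rfl⟩
  have hy1' : (y : G) ≠ 1 := fun e => hy1 (Subtype.ext (Subtype.ext e))
  have hPC : centralizer ({(y : G)} : Set G) = P :=
    le_antisymm (fun g hg => hC y hyP hy1' g (mem_cent.mp hg))
      fun g hg => mem_cent.mpr (hcomm g hg y hyP)
  have hti : CentTI P := hPC ▸ centTI_of_cent_le (fun v hv hv1 g hg => by
    rw [hPC] at hv ⊢
    exact hC v hv hv1 g (mem_cent.mp hg)) hy1'
  have hsup : normalizer (P : Set G) ⊔ L = ⊤ := by
    obtain ⟨r, hr, hd⟩ := Nat.exists_prime_and_dvd (mt card_eq_one.mp Z.ne_bot)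
    have := Fact.mk hr
    obtain ⟨⟨v, hv⟩, hvr⟩ := exists_prime_orderOf_dvd_card' r hd
    rw [orderOf_mk] at hvr
    have hv1 : v ≠ 1 := fun e => by
      rw [e, orderOf_one] at hvr
      exact hr.one_lt.ne hvr
    obtain ⟨R, hR⟩ := (isPGroup_zpowers_iff.mpr ⟨1, by rw [hvr, pow_one]⟩).exists_le_sylow
    have hvR := hR (mem_zpowers v)
    obtain ⟨⟨z, hz, hz'⟩, hz1⟩ := ne_bot_iff_exists_ne_one.mp (inf_centralizer_ne_bot_of_isNilpotent
      R.isPGroup'.isNilpotent le_rfl le_normalizer fun e => hv1 (e.le hvR))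
    have hzP := Z.cti.cent v hv hv1 z (mem_centralizer_iff.mp hz' v hvR).symm
    have hRP : (R : Subgroup L) ≤ P₀ := fun x hx =>
      Z.cti.cent z hzP (fun e => hz1 (Subtype.ext e)) x (mem_centralizer_iff.mp hz' x hx)
    refine eq_top_iff.mpr fun g _ => ?_
    obtain ⟨k, hk⟩ := exists_conj_mem_sylow R (u := ⟨g * v * g⁻¹, hLn.conj_mem _ v.2 g⟩) (k := 1)
      (by rw [orderOf_mk, Frob.orderOf_conj_eq, orderOf_coe, hvr, pow_one])
    have h1 : (k : G) * g ∈ normalizer (P : Set G) := hti.mem_norm (x := v) ⟨v, hv, rfl⟩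
      (fun e => hv1 (Subtype.ext e)) ⟨_, hRP hk, by simp [mul_assoc]⟩
    simpa using mul_mem (mem_sup_right (inv_mem k.2)) (mem_sup_left (T := L) h1)
  have hidx : (normalizer (P : Set G)).index = (normalizer (P₀ : Set L)).index := by
    rw [← hnorm]
    have h1 := relIndex_mul_index (inf_le_left : normalizer (P : Set G) ⊓ L ≤ _)
    have h2 := relIndex_mul_index (inf_le_right : normalizer (P : Set G) ⊓ L ≤ _)
    rw [inf_relIndex_left, ← relIndex_sup_right, hsup, relIndex_top_right, hL] at h1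
    rw [inf_relIndex_right, hL, relIndex] at h2
    omega
  set w : G := (w₀ : G) with hw
  have hww : w * w = 1 := congrArg Subtype.val Z.ww
  have hwN : w ∉ normalizer (P : Set G) := fun e => Z.notMem ((hnm _).mpr e)
  have hidx' : (normalizer (P : Set G)).index = Nat.card P + 1 := by rw [hidx, Z.index, hcard]
  have hT : Nat.card (twoPt P w) = 2 * Nat.card (twoPt P₀ w₀) := by
    have h1 := hti.card_twoPt hidx' hwN
    have h2 := Z.cti.card_twoPt Z.index Z.notMem
    have h3 := (normalizer (P : Set G)).card_mul_index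
    have h4 := (normalizer (P₀ : Set L)).card_mul_index
    have h5 := L.card_mul_index
    rw [hL, ← h4, ← h3, h1, h2, hidx', Z.index, hcard] at h5
    have h6 : 0 < Nat.card P₀ * (Nat.card P₀ + 1) := Nat.mul_pos Nat.card_pos (Nat.succ_pos _)
    apply Nat.eq_of_mul_eq_mul_left h6
    linarith
  have := Fact.mk Nat.prime_two
  obtain ⟨⟨z, hz⟩, hz2⟩ := exists_prime_orderOf_dvd_card' (G := twoPt P w) 2 (hT ▸ dvd_mul_right _ _)
  rw [orderOf_mk] at hz2
  have hinv : ∀ u ∈ twoPt P w, orderOf u = 2 → u * y * u⁻¹ = (y : G)⁻¹ := fun u hu hu2 =>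
    inverts_of_fpf (orderOf_eq_two_iff'.mp hu2).1
      (fun k hk => conj_mem_of_mem_normalizer (mem_twoPt.mp hu).1 hk)
      (hti.fpf fun e => (orderOf_eq_two_iff'.mp hu2).2 (hti.twoPt_disjoint hwN hu e)) hyP
  have huniq : ∀ u ∈ twoPt P w, orderOf u = 2 → u = z := fun u hu hu2 => by
    have h1 := hti.twoPt_disjoint hwN (mul_mem hu hz) (hC y hyP hy1' _ (by
      calc u * z * y = u * (z * y * z⁻¹) * u⁻¹ * (u * z) := by group
        _ = (u * y * u⁻¹)⁻¹ * (u * z) := by rw [hinv z hz hz2]; group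
        _ = _ := by rw [hinv u hu hu2, inv_inv]))
    rw [eq_inv_of_mul_eq_one_left h1, inv_eq_of_mul_eq_one_right (orderOf_eq_two_iff'.mp hz2).1]
  have hz1 := (orderOf_eq_two_iff'.mp hz2).2
  have hTz : twoPt P w ≤ π.c z := fun d hd => by
    by_cases h : orderOf d = 2
    · exact huniq d hd h ▸ π.mem d
    refine mem_of_comm (π.mem z) hz1 ?_ (hz2 ▸ h)
    have := huniq _ (mul_mem (mul_mem hd hz) (inv_mem hd)) (by rw [Frob.orderOf_conj_eq, hz2])
    rwa [mul_inv_eq_iff_eq_mul] at this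
  have hw1 : w ≠ 1 := fun e => hwN (e ▸ one_mem _)
  have hwz : w ∉ π.c z := fun e => hwN (hu w w₀.2 (orderOf_eq_two_iff'.mpr ⟨hww, hw1⟩) z
    (mem_of_mem hw1 (π.mem w) e) hz2 ▸ (mem_twoPt.mp hz).1)
  have hwi := inv_eq_of_mul_eq_one_right hww
  have Z' : ZAb P w := ⟨hti, hcomm, fun e => hy1' (e.le hyP), hidx', hww, hwN, fun d hd => by
    have h1 : w * d * w⁻¹ ∈ twoPt P w := by
      refine mem_twoPt.mpr ⟨?_, by simpa [mul_assoc] using (mem_twoPt.mp hd).1⟩
      have := (mem_twoPt.mp hd).2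
      rwa [hwi] at this ⊢
    have h2 := pow_eq_one (g := w * d) (n := 2)
      (fun e => hwz ((mul_mem_cancel_right (hTz hd)).mp e)) (by
        rw [hwi] at h1
        rw [pow_two, ← mul_assoc]
        exact hTz (mul_mem h1 hd))
    rw [pow_two, ← mul_assoc] at h2
    rw [hwi]
    exact eq_inv_of_mul_eq_one_left h2⟩
  rw [← hcard]
  exact Z'.pgl (by rw [hT, hcard, hc])

end CfsgLib.Part.Part
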